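import Cfsg.Agent.H23.Tits.Elem

/-!
The centralizer of the central involution in the twisted group of type F₄ over the field with two elements.
-/

set_option autoImplicit false
set_option maxRecDepth 100000
set_option synthInstance.maxSize 4096
set_option synthInstance.maxHeartbeats 400000

open Cfsg.Lie Cfsg.Agent.H46
open Cfsg.Agent.H65.Twist Cfsg.Agent.H65.Twist.WeylTable
open Cfsg.Agent.H71.ReeF4

set_option maxHeartbeats 400000

namespace Cfsg.Agent.H23.Tits

/-- The central involution. -/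
noncomputable def zz : ↥W2 := g1 5

theorem zz_sq : zz * zz = 1 := by
  have h := eqW_sound basic_ok.2.1
  rwa [el_cons, el_single, el_nil] at h

theorem zz_ne_one : zz ≠ 1 := by
  intro h
  have h2 := (orderOf_gelW (K := ZMod 2) (m := 0) hK2).2
  have e : gelW (K := ZMod 2) (m := 0) hK2 5 = zz := Subtype.ext (g1_coe 5).symm
  rw [e, h, orderOf_one] at h2
  omega

theorem zz_mem_U2 : zz ∈ U2 := g1_mem_U2 5

theorem zz_comm_g1 (k : Fin 12) : zz * g1 k = g1 k * zz := by
  have h := eqW_sound (basic_ok.1 k).2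
  rwa [el_cons, el_single, el_cons, el_single] at h

theorem zz_comm_el : ∀ L : List (Fin 12), zz * el L = el L * zz
  | [] => by rw [el_nil, mul_one, one_mul]
  | k :: L => by rw [el_cons, ← mul_assoc, zz_comm_g1, mul_assoc, zz_comm_el L, mul_assoc]

theorem zz_comm_U2 {u : ↥W2} (hu : u ∈ U2) : zz * u = u * zz := by
  obtain ⟨L, rfl⟩ := exists_el hu
  exact zz_comm_el L

theorem comm_of_conj {G : Type*} [Group G] {a b : G} (h : a * b * a⁻¹ = b) : a * b = b * a :=
  mul_inv_eq_iff_eq_mul.1 h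

theorem nn_comm_zz : nn 1 * zz = zz * nn 1 :=
  comm_of_conj (G := ↥W2) ((nn_conj_g1 basic_ok.2.2.2.1).trans (congrArg g1 basic_ok.2.2.2.2))

attribute [irreducible] zz

/-- The centralizer of an element of the unipotent group in two cells. -/
theorem cells_eq {Γ ι : Type*} [Group Γ] (T : Cfsg.Agent.H47.TwistData Γ ι) (z : Γ) (hzU : ∀ u ∈ T.U1, u * z = z * u)
    (hH0 : ∀ h ∈ T.H0, h = 1) (j : ι) (hn : T.nS j * z = z * T.nS j)
    (hmon : ∀ m ∈ T.N0, m * z = z * m → m = 1 ∨ m = T.nS j) :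
    {a : Γ | a ∈ T.G1 ∧ a * z = z * a} = T.cell 1 ∪ T.cell (T.nS j) := by
  ext a
  constructor
  · rintro ⟨ha, hc⟩
    obtain ⟨m, hm, h⟩ := T.exists_cell ha
    have h' := h
    obtain ⟨u, hu, t, ht, u', hu', rfl⟩ := h'
    obtain rfl := hH0 t ht
    have hm' : m * z = z * m := by
      have e : m = u⁻¹ * (u * (m * 1) * u') * u'⁻¹ := by group
      rw [e]
      have c1 : Commute u⁻¹ z := (show Commute u z from hzU u hu).inv_left
      have c2 : Commute (u * (m * 1) * u') z := hc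
      have c3 : Commute u'⁻¹ z := (show Commute u' z from hzU u' hu').inv_left
      exact ((c1.mul_left c2).mul_left c3).eq
    rcases hmon m hm hm' with e | e <;> subst e
    · exact Or.inl h
    · exact Or.inr h
  · intro h
    obtain ⟨m, hm, hmz, h⟩ : ∃ m ∈ T.N0, m * z = z * m ∧ a ∈ T.cell m := by
      rcases h with h | h
      · exact ⟨1, one_mem _, by rw [one_mul, mul_one], h⟩
      · exact ⟨_, T.nS_mem_N0 j, hn, h⟩
    refine ⟨T.cell_subset_G1 hm h, ?_⟩
    obtain ⟨u, hu, t, ht, u', hu', rfl⟩ := h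
    obtain rfl := hH0 t ht
    have c2 : Commute (m * 1) z := by rw [mul_one]; exact hmz
    exact (((show Commute u z from hzU u hu).mul_left c2).mul_left (show Commute u' z from hzU u' hu')).eq

/-- The two cells together. -/
theorem cells_card {Γ ι : Type*} [Group Γ] [Finite Γ] (T : Cfsg.Agent.H47.TwistData Γ ι) (hH0 : ∀ h ∈ T.H0, h = 1)
    (j : ι) (hne : ∃ x ∈ T.X1 j, x ≠ 1) :
    Nat.card ↥(T.cell 1 ∪ T.cell (T.nS j)) = Nat.card T.U1 * (1 + Nat.card (T.X1 j)) := by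
  obtain ⟨x, hx, hx1⟩ := hne
  have hd : T.Desc (T.nS j) j := by
    by_contra hd
    exact hx1 (conj_eq_one_iff.1 (T.U_inf_V (T.not_desc_U _ (T.nS_mem_N0 j) j hd x hx.1) (T.X_conj_V j x hx.1)))
  have hB : Nat.card T.B1 = Nat.card T.U1 := by
    have : T.H0 = ⊥ := (Subgroup.eq_bot_iff_forall _).2 hH0
    rw [T.card_B1, this, Subgroup.card_bot, mul_one]
  have h1 : Nat.card (T.cell 1) = Nat.card T.U1 := by
    rw [T.card_cell (one_mem _), hB, T.U1w_H (one_mem _), Subgroup.card_bot, mul_one]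
  have h2 : Nat.card (T.cell (T.nS j)) = Nat.card T.U1 * Nat.card (T.X1 j) := by
    rw [T.card_cell (T.nS_mem_N0 j), hB, T.card_U1w_step (T.nS_mem_N0 j) hd, mul_inv_cancel,
      T.U1w_H (one_mem _), Subgroup.card_bot, mul_one]
  have hdis : Disjoint (T.cell 1) (T.cell (T.nS j)) := by
    rw [Set.disjoint_left]
    intro a ha hb
    have := T.cell_unique (one_mem _) (T.nS_mem_N0 j) ha hb
    rw [inv_one, one_mul] at this
    have hV := T.X_conj_V j x hx.1
    rw [hH0 _ this, one_mul, inv_one, mul_one] at hV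
    exact hx1 (T.U_inf_V (T.X_le_U j hx.1) hV)
  rw [Nat.card_coe_set_eq, Set.ncard_union_eq hdis (Set.toFinite _) (Set.toFinite _),
    ← Nat.card_coe_set_eq, ← Nat.card_coe_set_eq, h1, h2]
  ring

theorem dihedral_cases : ∀ d : DihedralGroup 8, d = 1 ∨ d = f4Gen 1 ∨
    ∃ k : Fin 5, d ^ k.val = DihedralGroup.r 4 ∨ (d * f4Gen 1) ^ k.val = DihedralGroup.r 4 := by decide +kernel

theorem word_gen_one : f4Word (f4Gen 1) = [1] := by decide +kernel

/-- The centralizer of the central involution. -/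
noncomputable def CW : Subgroup ↥W2 := Subgroup.centralizer ({zz} : Set ↥W2)

theorem mem_CW {g : ↥W2} : g ∈ CW ↔ g * zz = zz * g := Subgroup.mem_centralizer_singleton_iff

theorem U2_le_CW : U2 ≤ CW := fun _ hu => mem_CW.2 (zz_comm_U2 hu).symm

theorem nn_mem_CW : nn 1 ∈ CW := mem_CW.2 nn_comm_zz

section

variable {D : ChevalleyDatum} {G : Good D} {F : Type*} [Field F] {ι : Type*} {T : Setup G F ι} {κ : Type*} [Group κ]

/-- In a table with trivial diagonal part the monomial elements commuting with an element form a group of indices. -/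
theorem table_comm_cases (W : WeylTable T κ) (hH0 : ∀ h ∈ T.data.H0, h = 1) (d0 d1 : κ)
    (hcases : ∀ d : κ, d = 1 ∨ d = d0 ∨ ∃ k : Fin 5, d ^ k.val = d1 ∨ (d * d0) ^ k.val = d1)
    (z : ↥(D.group F)) (h0 : repW T (W.word d0) * z = z * repW T (W.word d0))
    (h1 : repW T (W.word d1) * z = z * repW T (W.word d1) → False)
    (m : ↥(D.group F)) (hm : m ∈ T.data.N0) (h : m * z = z * m) :
    m = 1 ∨ m = repW T (W.word d0) := by
  have hinj : Function.Injective W.hom := by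
    rw [← MonoidHom.ker_eq_bot_iff, W.hom_ker, Subgroup.eq_bot_iff_forall]
    exact fun g hg => Subtype.ext (hH0 g (Subgroup.mem_subgroupOf.1 hg))
  have hrep : ∀ d, W.hom ⟨repW T (W.word d), repW_mem _⟩ = d := fun d =>
    W.perm_injective (W.idx_spec ⟨_, repW_mem (W.word d)⟩).symm
  let Cz : Subgroup ↥T.data.N0 := (Subgroup.centralizer ({z} : Set ↥(D.group F))).comap T.data.N0.subtype
  have hCz : ∀ a : ↥T.data.N0, a ∈ Cz ↔ a.1 * z = z * a.1 := fun a => Subgroup.mem_centralizer_singleton_iff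
  let E : Subgroup κ := Cz.map W.hom
  have hgen : d0 ∈ E := ⟨⟨repW T (W.word d0), repW_mem _⟩, (hCz _).2 h0, hrep _⟩
  have hr4 : d1 ∉ E := by
    rintro ⟨a, ha, e⟩
    have e' : a = ⟨repW T (W.word d1), repW_mem _⟩ := hinj (e.trans (hrep d1).symm)
    subst e'
    exact h1 ((hCz _).1 ha)
  have hd : W.hom ⟨m, hm⟩ ∈ E := ⟨⟨m, hm⟩, (hCz _).2 h, rfl⟩
  rcases hcases (W.hom ⟨m, hm⟩) with h | h | ⟨k, h | h⟩
  · exact Or.inl (congrArg Subtype.val ((map_eq_one_iff _ hinj).1 h))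
  · exact Or.inr (congrArg Subtype.val (hinj (h.trans (hrep d0).symm)))
  · exact absurd (h ▸ pow_mem hd _) hr4
  · exact absurd (h ▸ pow_mem (mul_mem hd hgen) _) hr4

end

/-- The setup of the twisted group. -/
noncomputable abbrev S2 := f4Setup (ZMod 2) (m := 0) hK2

/-- An element inside the untwisted group. -/
noncomputable def lift2 (g : ↥W2) : ↥(chevF4.group (ZMod 2)) := ⟨g.1, twistedF4_le g.2⟩

theorem lift2_coe (g : ↥W2) : (lift2 g : GL chevF4.Idx (ZMod 2)) = g.1 := rfl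

attribute [irreducible] lift2

theorem lift2_mul (g h : ↥W2) : lift2 (g * h) = lift2 g * lift2 h :=
  Subtype.ext (by rw [Subgroup.coe_mul, lift2_coe, lift2_coe, lift2_coe, Subgroup.coe_mul])

theorem lift2_injective : Function.Injective lift2 := fun g h e =>
  Subtype.ext (by rw [← lift2_coe g, ← lift2_coe h, e])

theorem mem_G1_iff (a : ↥(chevF4.group (ZMod 2))) : a ∈ S2.data.G1 ↔ (a : GL chevF4.Idx (ZMod 2)) ∈ W2 := by
  rw [show S2.data.G1 = S2.W from S2.G1_eq]
  exact Subgroup.mem_subgroupOf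

theorem lift2_zz_mem : lift2 zz ∈ S2.data.U1 :=
  S2.mem_U1.2 ⟨by rw [lift2_coe]; exact Subgroup.mem_subgroupOf.1 zz_mem_U2,
    f4W_fixed hK2 (lift2 zz) (Subgroup.mem_subgroupOf.2 (by rw [lift2_coe]; exact zz.2))⟩

theorem lift2_zz_ne : lift2 zz ≠ 1 := by
  intro h
  apply zz_ne_one
  apply Subtype.ext
  rw [← lift2_coe, h]
  rfl

theorem lift2_zz_comm (u : ↥(chevF4.group (ZMod 2))) (hu : u ∈ S2.data.U1) : u * lift2 zz = lift2 zz * u := by
  have hW : (u : GL chevF4.Idx (ZMod 2)) ∈ W2 := (mem_G1_iff u).1 (S2.data.U1_le_G1 hu)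
  have hg : (⟨u.1, hW⟩ : ↥W2) ∈ U2 := Subgroup.mem_subgroupOf.2 (S2.mem_U1.1 hu).1
  have e : lift2 ⟨u.1, hW⟩ = u := Subtype.ext (lift2_coe _)
  rw [← e, ← lift2_mul, ← lift2_mul, zz_comm_U2 hg]

theorem H0_trivial : ∀ h ∈ S2.data.H0, h = 1 := by
  intro h hh
  have h1 : Nat.card ↥S2.data.H0 = 1 := by
    rw [card_f4H0 hK2]
    norm_num
  haveI := (Nat.card_eq_one_iff_unique.1 h1).1
  exact congrArg (fun a : S2.data.H0 => a.1) (Subsingleton.elim (⟨h, hh⟩ : S2.data.H0) ⟨1, one_mem _⟩)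

theorem nS_one_eq : S2.data.nS 1 = lift2 (nn 1) := by
  apply Subtype.ext
  rw [lift2_coe, nn_coe]
  rfl

theorem nS_one_comm : S2.data.nS 1 * lift2 zz = lift2 zz * S2.data.nS 1 := by
  rw [nS_one_eq, ← lift2_mul, ← lift2_mul, nn_comm_zz]

theorem repW_one : repW S2 [1] = S2.data.nS 1 := by
  rw [repW, repW, one_mul]
  rfl

theorem gen_comm : repW S2 (f4Word (f4Gen 1)) * lift2 zz = lift2 zz * repW S2 (f4Word (f4Gen 1)) := by
  rw [word_gen_one, repW_one, nS_one_comm]

theorem top_not_comm (h : repW S2 (f4Word (DihedralGroup.r 4)) * lift2 zz =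
    lift2 zz * repW S2 (f4Word (DihedralGroup.r 4))) : False := by
  have hV : repW S2 (f4Word (DihedralGroup.r 4)) * lift2 zz * (repW S2 (f4Word (DihedralGroup.r 4)))⁻¹ ∈
      S2.data.V := by
    refine S2.R.conj_mem_of_forall (mon_of_mem (repW_mem (T := S2) _))
      (S := fun r => 0 ≤ goodF4.rc r.val) (fun r hr => (S2.R.X_le_V ?_)) lift2_zz_mem.1
    show goodF4.rc (goodF4.perm (repW S2 (f4Word (DihedralGroup.r 4)) : GL chevF4.Idx (ZMod 2)) r).val ≤ 0
    rw [rc_nonpos_iff goodF4 (Fin.isLt _), goodF4.isNegRoot_iff, (f4Table (ZMod 2) (m := 0) hK2).perm_repW]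
    exact f4_top r ((nonneg_rc_iff goodF4 r.2).1 hr)
  rw [h, mul_inv_cancel_right] at hV
  exact lift2_zz_ne (S2.data.U_inf_V lift2_zz_mem.1 hV)

/-- The monomial elements centralizing the central involution. -/
theorem mon_comm (m : ↥(chevF4.group (ZMod 2))) (hm : m ∈ S2.data.N0) (h : m * lift2 zz = lift2 zz * m) :
    m = 1 ∨ m = S2.data.nS 1 := by
  rcases table_comm_cases (f4Table (ZMod 2) (m := 0) hK2) H0_trivial (f4Gen 1) (DihedralGroup.r 4) dihedral_cases
    (lift2 zz) gen_comm top_not_comm m hm h with e | e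
  · exact Or.inl e
  · right
    rw [← repW_one, ← word_gen_one]
    exact e

theorem card_CW_eq :
    Nat.card CW = Nat.card {a : ↥(chevF4.group (ZMod 2)) | a ∈ S2.data.G1 ∧ a * lift2 zz = lift2 zz * a} := by
  refine Nat.card_congr (Equiv.ofBijective
    (fun g => ⟨lift2 g.1, (mem_G1_iff _).2 (by rw [lift2_coe]; exact g.1.2),
      by rw [← lift2_mul, ← lift2_mul, mem_CW.1 g.2]⟩) ⟨fun g h e => ?_, fun a => ?_⟩)
  · exact Subtype.ext (lift2_injective (congrArg (fun t : {a : ↥(chevF4.group (ZMod 2)) |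
      a ∈ S2.data.G1 ∧ a * lift2 zz = lift2 zz * a} => t.1) e))
  · obtain ⟨a, ha, hc⟩ := a
    have e : lift2 ⟨a.1, (mem_G1_iff a).1 ha⟩ = a := Subtype.ext (lift2_coe _)
    refine ⟨⟨⟨a.1, (mem_G1_iff a).1 ha⟩, mem_CW.2 (lift2_injective ?_)⟩, Subtype.ext e⟩
    rw [lift2_mul, lift2_mul, e, hc]

/-- The centralizer has order `2¹² · 5`. -/
theorem card_CW : Nat.card CW = 20480 := by
  rw [card_CW_eq, cells_eq S2.data (lift2 zz) lift2_zz_comm H0_trivial 1 nS_one_comm mon_comm,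
    cells_card S2.data H0_trivial 1 (f4_hne hK2 1), card_f4U1 hK2, card_f4X1 hK2]
  simp [f4Len]

/-- A reflected coordinate element outside the unipotent group. -/
theorem flip_eleven_not_mem : nn 1 * g1 11 * (nn 1)⁻¹ ∉ U2 := by
  intro h
  set S := f4Setup (ZMod 2) (m := 0) hK2 with hS
  set T := S.data with hT
  have hx : (⟨(b2U (ZMod 2) 0 0 1 : GL chevF4.Idx (ZMod 2)), twistedF4_le (by
      rw [← gel_eleven hK2]; exact gel_mem hK2 11 1)⟩ : ↥(chevF4.group (ZMod 2))) ∈ T.X1 1 := by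
    have := b2U_X1 (K := ZMod 2) (m := 0) hK2 0 1
    convert this using 1
  set x : ↥(chevF4.group (ZMod 2)) := ⟨(b2U (ZMod 2) 0 0 1 : GL chevF4.Idx (ZMod 2)), twistedF4_le (by
      rw [← gel_eleven hK2]; exact gel_mem hK2 11 1)⟩ with hxdef
  have hV : T.nS 1 * x * (T.nS 1)⁻¹ ∈ T.V := T.X_conj_V 1 x hx.1
  have hU : T.nS 1 * x * (T.nS 1)⁻¹ ∈ T.U := by
    rw [hT, S.data_U, Subgroup.mem_subgroupOf]
    have e : ((T.nS 1 * x * (T.nS 1)⁻¹ : ↥(chevF4.group (ZMod 2))) : GL chevF4.Idx (ZMod 2)) =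
        ((nn 1 * g1 11 * (nn 1)⁻¹ : ↥W2) : GL chevF4.Idx (ZMod 2)) := by
      simp only [Subgroup.coe_mul, Subgroup.coe_inv, nn_coe, g1_coe]
      rw [gel_eleven hK2]
      rfl
    rw [hT] at e
    rw [e]
    exact Subgroup.mem_subgroupOf.1 h
  have h1 : x = 1 := conj_eq_one_iff.1 (T.U_inf_V hU hV)
  have h2 : g1 11 = 1 := by
    apply Subtype.ext
    rw [g1_coe, gel_eleven hK2]
    exact congrArg Subtype.val h1
  have := el_inj_normal (L := [11]) (L' := []) (by decide) (by decide) (by rw [el_single, el_nil, h2])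
  simp at this

end Cfsg.Agent.H23.Tits
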