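import Cfsg.Agent.H23.Tits.Cert

/-!
The values of words of coordinates in the twisted group of type F₄ over the field with two elements.
-/

set_option autoImplicit false
set_option maxRecDepth 100000
set_option synthInstance.maxSize 4096
set_option synthInstance.maxHeartbeats 400000

open Cfsg.Lie Cfsg.Agent.H46
open Cfsg.Agent.H65.Twist
open Cfsg.Agent.H71.ReeF4
open scoped commutatorElement

namespace Cfsg.Agent.H23.Tits

theorem hK2 : Fintype.card (ZMod 2) = 2 ^ (2 * 0 + 1) := by simp

theorem two_cases : ∀ t : ZMod 2, t = 0 ∨ t = 1 := by decide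

/-- The group. -/
abbrev W2 : Subgroup (GL chevF4.Idx (ZMod 2)) := twistedF4 (ZMod 2) (2 ^ 0)

/-- The coordinate elements. -/
noncomputable def g1 (k : Fin 12) : ↥W2 := gelW hK2 k

/-- The value of a list of coordinates. -/
noncomputable def el (L : List (Fin 12)) : ↥W2 := (L.map g1).prod

theorem el_nil : el [] = 1 := rfl

theorem el_cons (k : Fin 12) (L : List (Fin 12)) : el (k :: L) = g1 k * el L := rfl

theorem el_single (k : Fin 12) : el [k] = g1 k := mul_one _

theorem el_append (L L' : List (Fin 12)) : el (L ++ L') = el L * el L' := by simp [el]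

theorem el_val : ∀ L : List (Fin 12),
    (el L : GL chevF4.Idx (ZMod 2)) = evW (psi (ZMod 2) 0) [] (cw L)
  | [] => rfl
  | k :: L => by
    have h1 : evP (psi (ZMod 2) 0) ([] : List (ZMod 2)) [[]] = 1 := by simp [evP, evM]
    rw [el_cons, Subgroup.coe_mul, el_val L]
    rw [show cw (k :: L) = gen k [[]] ++ cw L from rfl, evW_append, evW_gen (psi_psi hK2), h1]
    rfl

theorem g1_coe (k : Fin 12) : (g1 k : GL chevF4.Idx (ZMod 2)) = gel (psi (ZMod 2) 0) k 1 := rfl

attribute [irreducible] g1

theorem eqW_sound {L L' : List (Fin 12)} (h : eqW L L' = true) : el L = el L' := by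
  apply Subtype.ext
  rw [el_val, el_val]
  exact evW_eq _ (of_decide_eq_true h)

theorem g1_pow_four (k : Fin 12) : g1 k * (g1 k * (g1 k * g1 k)) = 1 := by
  have h := eqW_sound (basic_ok.1 k).1
  rw [el_cons, el_cons, el_cons, el_single, el_nil] at h
  exact h

theorem el_triple (k : Fin 12) : el [k, k, k] = (g1 k)⁻¹ := by
  rw [el_cons, el_cons, el_single]
  exact eq_inv_of_mul_eq_one_right (g1_pow_four k)

attribute [irreducible] el

theorem el_invL : ∀ L : List (Fin 12), el (invL L) = (el L)⁻¹
  | [] => by rw [show invL [] = [] from rfl, el_nil, inv_one]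
  | k :: L => by
    have ih := el_invL L
    have e : invL (k :: L) = invL L ++ [k, k, k] := by simp [invL]
    rw [e, el_append, ih, el_triple, el_cons, mul_inv_rev]

theorem el_conjL (a L : List (Fin 12)) : el (conjL a L) = el a * el L * (el a)⁻¹ := by
  rw [conjL, el_append, el_append, el_invL]

theorem el_commL (a L : List (Fin 12)) : el (commL a L) = ⁅el a, el L⁆ := by
  rw [commL, el_append, el_append, el_append, el_invL, el_invL, commutatorElement_def]

/-- The reflection representatives. -/
noncomputable def nn (j : Fin 2) : ↥W2 := ⟨(f4N (ZMod 2) j : GL chevF4.Idx (ZMod 2)), f4N_mem' hK2 j⟩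

theorem nn_coe (j : Fin 2) : (nn j : GL chevF4.Idx (ZMod 2)) = (f4N (ZMod 2) j : GL chevF4.Idx (ZMod 2)) := rfl

attribute [irreducible] nn

theorem nn_conj_g1 {j : Fin 2} {k : Fin 12} (h : mvOk j k = true) : nn j * g1 k * (nn j)⁻¹ = g1 (mv j k) := by
  apply Subtype.ext
  rw [Subgroup.coe_mul, Subgroup.coe_mul, Subgroup.coe_inv, nn_coe, g1_coe, g1_coe]
  exact move_gel hK2 h 1

theorem el_flip (j : Fin 2) : ∀ L : List (Fin 12), flipOk j L = true → nn j * el L * (nn j)⁻¹ = el (L.map (mv j))
  | [], _ => by rw [List.map_nil, el_nil, mul_one, mul_inv_cancel]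
  | k :: L, h => by
    simp only [flipOk, List.all_cons, Bool.and_eq_true] at h
    rw [List.map_cons, el_cons, el_cons, ← el_flip j L h.2, ← nn_conj_g1 h.1]
    group

theorem el_unflip (j : Fin 2) (L : List (Fin 12)) (hi : L.all (fun k => decide (mv j (mv j k) = k)) = true)
    (h : flipOk j (L.map (mv j)) = true) : (nn j)⁻¹ * el L * nn j = el (L.map (mv j)) := by
  have h1 := el_flip j _ h
  rw [List.map_map] at h1
  have : L.map (mv j ∘ mv j) = L := by
    simp only [List.all_eq_true, decide_eq_true_eq] at hi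
    conv_rhs => rw [← List.map_id L]
    exact List.map_congr_left fun k hk => hi k hk
  rw [this] at h1
  rw [← h1]
  group

/-- The unipotent subgroup. -/
noncomputable def U2 : Subgroup ↥W2 := (chevF4.posUnipotent (ZMod 2)).subgroupOf W2

theorem g1_mem_U2 (k : Fin 12) : g1 k ∈ U2 := by
  obtain ⟨hA, hB, hE⟩ := gen_lt k
  have hpos : ∀ k : Fin 12, chevF4.IsPosRoot (rootA k) ∧ chevF4.IsPosRoot (rootB k) ∧
      ∀ e ∈ rootE k, chevF4.IsPosRoot e := by decide +kernel
  obtain ⟨pA, pB, pE⟩ := hpos k
  rw [U2, Subgroup.mem_subgroupOf]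
  rw [g1_coe]
  rw [gel]
  refine mul_mem (mul_mem (goodF4.posSub_le_posUnipotent Set.univ (goodF4.xg_mem_posSub pA (Set.mem_univ _) _)) (goodF4.posSub_le_posUnipotent Set.univ (goodF4.xg_mem_posSub pB (Set.mem_univ _) _))) ?_
  rcases hE' : rootE k with _ | e
  · exact one_mem _
  · exact goodF4.posSub_le_posUnipotent Set.univ (goodF4.xg_mem_posSub (pE e (by rw [hE']; rfl)) (Set.mem_univ _) _)

theorem el_mem_U2 : ∀ L : List (Fin 12), el L ∈ U2
  | [] => by rw [el_nil]; exact one_mem _
  | k :: L => by rw [el_cons]; exact mul_mem (g1_mem_U2 k) (el_mem_U2 L)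

theorem card_U2 : Nat.card U2 = 4096 := by
  rw [U2, ← Subgroup.inf_subgroupOf_right, Nat.card_congr (Subgroup.subgroupOfEquivOfLe inf_le_right).toEquiv,
    f4_card_unipotent (m := 0) hK2]
  norm_num

/-- The normal list of a support. -/
def normL (v : Fin 12 → ZMod 2) : List (Fin 12) := (List.finRange 12).filter fun k => decide (v k = 1)

theorem el_normL (v : Fin 12 → ZMod 2) : (el (normL v) : GL chevF4.Idx (ZMod 2)) = form (psi (ZMod 2) 0) v := by
  unfold normL form
  induction List.finRange 12 with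
  | nil => rw [List.filter_nil, el_nil]; rfl
  | cons k L ih =>
    rw [List.map_cons, List.prod_cons]
    rcases two_cases (v k) with h | h
    · rw [List.filter_cons_of_neg (by simp [h]), ih, h, gel_zero, one_mul]
    · rw [List.filter_cons_of_pos (by simp [h]), el_cons, Subgroup.coe_mul, ih, h, g1_coe]

theorem normL_bijective : Function.Bijective fun v : Fin 12 → ZMod 2 => (⟨el (normL v), el_mem_U2 _⟩ : U2) := by
  refine (Nat.bijective_iff_surjective_and_card _).2 ⟨fun u => ?_, by rw [card_U2]; simp⟩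
  obtain ⟨⟨u, hu⟩, hu2⟩ := u
  let x : ↥(chevF4.group (ZMod 2)) := ⟨u, twistedF4_le hu⟩
  have hU : x ∈ (f4Setup (ZMod 2) (m := 0) hK2).data.U1 := (f4Setup (ZMod 2) (m := 0) hK2).mem_U1.2
    ⟨Subgroup.mem_subgroupOf.1 hu2, f4W_fixed hK2 x (Subgroup.mem_subgroupOf.2 hu)⟩
  obtain ⟨v, hv⟩ := exists_form hK2 hU
  exact ⟨v, Subtype.ext (Subtype.ext ((el_normL v).trans hv.symm))⟩

theorem exists_el {u : ↥W2} (hu : u ∈ U2) : ∃ L, el L = u := by
  obtain ⟨v, hv⟩ := normL_bijective.2 ⟨u, hu⟩
  exact ⟨_, congrArg Subtype.val hv⟩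

/-- Values of normal lists differ. -/
theorem el_inj_normal {L L' : List (Fin 12)} (h : L = (List.finRange 12).filter (fun k => decide (k ∈ L)))
    (h' : L' = (List.finRange 12).filter (fun k => decide (k ∈ L'))) (e : el L = el L') : L = L' := by
  classical
  have key : ∀ M : List (Fin 12), M = (List.finRange 12).filter (fun k => decide (k ∈ M)) →
      M = normL fun k => if k ∈ M then 1 else 0 := by
    intro M hM
    conv_lhs => rw [hM]
    unfold normL
    refine List.filter_congr fun k _ => ?_
    by_cases hk : k ∈ M <;> simp [hk]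
  have h1 := key L h
  have h2 := key L' h'
  rw [h1, h2] at e ⊢
  exact congrArg normL (normL_bijective.1 (Subtype.ext e))

end Cfsg.Agent.H23.Tits
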