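import Mathlib.GroupTheory.Sylow
import Mathlib.GroupTheory.Nilpotent
import Mathlib.GroupTheory.GroupAction.Quotient
import Mathlib.GroupTheory.GroupAction.MultipleTransitivity
import Mathlib.Tactic

/-!
Arguments on groups of the shape of an involution centralizer of the Tits group, and the exclusion of two-transitive
actions from numerical data of such an involution.
-/

set_option autoImplicit false

namespace Cfsg.Agent.H23.Tits

variable {Γ : Type*} [Group Γ]

/-- A subgroup and one element normalizing it with square inside generate at most twice as much. -/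
theorem card_sup_zpowers_le [Finite Γ] (R : Subgroup Γ) (g : Γ) (hn : ∀ r ∈ R, g * r * g⁻¹ ∈ R) (hg : g * g ∈ R) :
    Nat.card ↥(R ⊔ Subgroup.zpowers g) ≤ 2 * Nat.card R := by
  classical
  have hmap : ∀ r ∈ R, g⁻¹ * r * g ∈ R := by
    intro r hr
    have h := mul_mem (mul_mem (inv_mem hg) (hn r hr)) hg
    convert h using 1
    group
  let T : Subgroup Γ :=
    { carrier := {x | x ∈ R ∨ x * g ∈ R}
      one_mem' := Or.inl (one_mem _)
      mul_mem' := by
        rintro a b (ha | ha) (hb | hb)
        · exact Or.inl (mul_mem ha hb)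
        · exact Or.inr (by rw [mul_assoc]; exact mul_mem ha hb)
        · refine Or.inr ?_
          have := mul_mem ha (hmap b hb)
          convert this using 1
          group
        · refine Or.inl ?_
          have := mul_mem (mul_mem ha (hmap (b * g) hb)) (inv_mem hg)
          convert this using 1
          group
      inv_mem' := by
        rintro a (ha | ha)
        · exact Or.inl (inv_mem ha)
        · refine Or.inr ?_
          have := mul_mem (hn _ (inv_mem ha)) hg
          convert this using 1
          group }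
  have hle : R ⊔ Subgroup.zpowers g ≤ T :=
    sup_le (fun x hx => Or.inl hx) (Subgroup.zpowers_le.2 (Or.inr hg))
  refine (Nat.card_le_card_of_injective
    (fun x : ↥(R ⊔ Subgroup.zpowers g) => if h : (x : Γ) ∈ R then ((0 : Fin 2), (⟨x, h⟩ : R))
      else ((1 : Fin 2), (⟨x * g, (hle x.2).resolve_left h⟩ : R))) ?_).trans_eq (by simp [Nat.card_prod])
  intro x y h
  dsimp only at h
  split_ifs at h with h1 h2 h3
  · exact Subtype.ext (congrArg (fun p : Fin 2 × R => (p.2 : Γ)) h)
  · simp [Prod.ext_iff] at h
  · simp [Prod.ext_iff] at h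
  · exact Subtype.ext (mul_right_cancel (congrArg Subtype.val (congrArg Prod.snd h)))

/-- In a group of order `2¹¹ · 5` with a large 2-subgroup inside its commutator with the group, no subgroup has
index eight. -/
theorem index_ne_eight [Finite Γ] (hcard : Nat.card Γ = 10240) (R : Subgroup Γ) (h512 : 512 ≤ Nat.card R)
    (hR : Nat.card R ∣ 4096) (hcomm : R ≤ ⁅(⊤ : Subgroup Γ), R⁆) (S : Subgroup Γ) : S.index ≠ 8 := by
  classical
  intro hS
  haveI : Fact (Nat.Prime 5) := ⟨by norm_num⟩
  haveI : Fact (Nat.Prime 2) := ⟨by norm_num⟩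
  have hScard : Nat.card S = 1280 := by
    have := S.card_mul_index
    rw [hS, hcard] at this
    omega
  obtain ⟨y, hy⟩ := exists_prime_orderOf_dvd_card' (G := S) 5 (by rw [hScard]; norm_num)
  set Y : Subgroup Γ := Subgroup.zpowers (y : Γ) with hY
  have hYS : Y ≤ S := Subgroup.zpowers_le.2 y.2
  have hYcard : Nat.card Y = 5 := by rw [hY, Nat.card_zpowers, Subgroup.orderOf_coe, hy]
  have hYp : IsPGroup 5 Y := IsPGroup.of_card (n := 1) (by rw [hYcard, pow_one])
  -- the fixed cosets of `Y`
  have hmod := hYp.card_modEq_card_fixedPoints (Γ ⧸ S)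
  have hfix : ∀ c : Γ, ((c : Γ ⧸ S) ∈ MulAction.fixedPoints Y (Γ ⧸ S)) ↔ ∀ a ∈ Y, c⁻¹ * a * c ∈ S := by
    intro c
    rw [MulAction.mem_fixedPoints]
    constructor
    · intro h a ha
      have : ((a⁻¹ * c : Γ) : Γ ⧸ S) = c := h ⟨a⁻¹, inv_mem ha⟩
      rw [QuotientGroup.eq] at this
      simpa [mul_assoc] using this
    · intro h a
      show (((a : Γ) * c : Γ) : Γ ⧸ S) = c
      rw [QuotientGroup.eq]
      simpa [mul_assoc] using h _ (inv_mem a.2)
  set Nm : Subgroup Γ := Subgroup.normalizer (Y : Set Γ) with hNm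
  have horb : MulAction.fixedPoints Y (Γ ⧸ S) = MulAction.orbit Nm ((1 : Γ) : Γ ⧸ S) := by
    ext q
    induction q using QuotientGroup.induction_on with
    | _ c =>
      rw [hfix]
      constructor
      · intro h
        -- two subgroups of order five of `S`
        have hpow : (Nat.card S).factorization 5 = 1 := by
          rw [hScard, show (1280 : ℕ) = 5 ^ 1 * 256 by norm_num, Nat.factorization_mul (by norm_num) (by norm_num),
            Finsupp.add_apply, Nat.Prime.factorization_pow (by norm_num), Finsupp.single_eq_same,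
            Nat.factorization_eq_zero_of_not_dvd (by norm_num)]
        set Y' : Subgroup Γ := Y.map (MulAut.conj c⁻¹).toMonoidHom with hY'
        have hY'S : Y' ≤ S := by
          rintro _ ⟨a, ha, rfl⟩
          simpa using h a ha
        have hY'card : Nat.card Y' = 5 := by
          rw [hY', ← Nat.card_congr (Subgroup.equivMapOfInjective Y _ (MulEquiv.injective _)).toEquiv, hYcard]
        have hc1 : Nat.card (Y.subgroupOf S) = 5 := by
          rw [Nat.card_congr (Subgroup.subgroupOfEquivOfLe hYS).toEquiv, hYcard]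
        have hc2 : Nat.card (Y'.subgroupOf S) = 5 := by
          rw [Nat.card_congr (Subgroup.subgroupOfEquivOfLe hY'S).toEquiv, hY'card]
        let P : Sylow 5 S := Sylow.ofCard (Y.subgroupOf S) (by rw [hc1, hpow, pow_one])
        let P' : Sylow 5 S := Sylow.ofCard (Y'.subgroupOf S) (by rw [hc2, hpow, pow_one])
        obtain ⟨s, hs⟩ := MulAction.exists_smul_eq S P' P
        have key : ∀ a : Γ, a ∈ Y → (s : Γ) * (c⁻¹ * a * c) * (s : Γ)⁻¹ ∈ Y := by
          intro a ha
          have h1 : (⟨c⁻¹ * a * c, h a ha⟩ : S) ∈ (P' : Subgroup S) := ⟨a, ha, by simp⟩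
          have h2 : s * ⟨c⁻¹ * a * c, h a ha⟩ * s⁻¹ ∈ ((s • P' : Sylow 5 S) : Subgroup S) := by
            rw [Sylow.coe_subgroup_smul]
            exact ⟨_, h1, rfl⟩
          rw [hs] at h2
          exact h2
        have hmem : c * (s : Γ)⁻¹ ∈ Nm := by
          have h3 : (s : Γ) * c⁻¹ ∈ Nm := by
            rw [hNm, Subgroup.mem_normalizer_iff]
            have hle : Y.map (MulAut.conj ((s : Γ) * c⁻¹)).toMonoidHom ≤ Y := by
              rintro _ ⟨a, ha, rfl⟩
              simpa [mul_assoc] using key a ha
            have heq := Subgroup.eq_of_le_of_card_ge hle (by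
              rw [← Nat.card_congr (Subgroup.equivMapOfInjective Y _ (MulEquiv.injective _)).toEquiv])
            intro a
            constructor
            · intro ha
              rw [← heq]
              exact ⟨a, ha, rfl⟩
            · intro ha
              rw [← heq] at ha
              obtain ⟨b, hb, e⟩ := ha
              exact (MulAut.conj _).injective e ▸ hb
          simpa using inv_mem h3
        refine ⟨⟨_, hmem⟩, ?_⟩
        show (c * (s : Γ)⁻¹) • ((1 : Γ) : Γ ⧸ S) = _
        rw [MulAction.Quotient.smul_coe, QuotientGroup.eq]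
        simp
      · rintro ⟨⟨g, hg⟩, hgc⟩ a ha
        have h1 : g⁻¹ * c ∈ S := by
          have : ((g * 1 : Γ) : Γ ⧸ S) = c := hgc
          rw [QuotientGroup.eq] at this
          simpa using this
        have h2 : g⁻¹ * a * g ∈ S := hYS (by
          have := (Subgroup.mem_normalizer_iff.1 (inv_mem hg) a).1 ha
          simpa using this)
        have := mul_mem (mul_mem (inv_mem h1) h2) h1
        convert this using 1
        group
  have hdvd : Nat.card (MulAction.fixedPoints Y (Γ ⧸ S)) ∣ 10240 := by
    rw [horb, Nat.card_congr (MulAction.orbitEquivQuotientStabilizer Nm _), ← Subgroup.index_eq_card, ← hcard]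
    exact (Subgroup.index_dvd_card _).trans (Subgroup.card_subgroup_dvd_card _)
  have hle : Nat.card (MulAction.fixedPoints Y (Γ ⧸ S)) ≤ 8 := by
    rw [← hS, Subgroup.index_eq_card]
    exact Nat.card_le_card_of_injective Subtype.val Subtype.val_injective
  rw [← Subgroup.index_eq_card, hS] at hmod
  have h8 : Nat.card (MulAction.fixedPoints Y (Γ ⧸ S)) = 8 := by
    generalize Nat.card (MulAction.fixedPoints Y (Γ ⧸ S)) = f at hmod hle hdvd
    unfold Nat.ModEq at hmod
    interval_cases f <;> simp_all
  have hall : MulAction.fixedPoints Y (Γ ⧸ S) = Set.univ := by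
    refine Set.eq_of_subset_of_ncard_le (Set.subset_univ _) ?_
    rw [Set.ncard_univ, ← Subgroup.index_eq_card, hS, ← Nat.card_coe_set_eq, h8]
  set K := S.normalCore with hK
  have hYK : Y ≤ K := by
    intro a ha b
    have := (hfix b⁻¹).1 (by rw [hall]; trivial) a ha
    simpa using this
  have h5 : 5 ∣ Nat.card K := hYcard ▸ Subgroup.card_dvd_of_le hYK
  -- the quotient by the core is a 2-group
  have hidx2 : K.index ∣ 2 ^ 11 := by
    obtain ⟨t, ht⟩ := h5
    refine Dvd.intro_left t ?_
    have := K.card_mul_index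
    rw [hcard, ht] at this
    norm_num
    nlinarith
  obtain ⟨e, -, he⟩ := (Nat.dvd_prime_pow Nat.prime_two).1 hidx2
  have hQp : IsPGroup 2 (Γ ⧸ K) := IsPGroup.of_card (n := e) (by rw [← Subgroup.index_eq_card, he])
  haveI : Group.IsNilpotent (Γ ⧸ K) := hQp.isNilpotent
  set Rb : Subgroup (Γ ⧸ K) := R.map (QuotientGroup.mk' K) with hRb
  have hstep : Rb ≤ ⁅(⊤ : Subgroup (Γ ⧸ K)), Rb⁆ := by
    have h := Subgroup.map_mono (f := QuotientGroup.mk' K) hcomm
    rw [Subgroup.map_commutator, Subgroup.map_top_of_surjective _ (QuotientGroup.mk'_surjective K)] at h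
    exact h
  have hlow : ∀ i, Rb ≤ (⊤ : Subgroup (Γ ⧸ K)).lowerCentralSeries i := by
    intro i
    induction i with
    | zero => exact le_top
    | succ i ih =>
      refine hstep.trans ?_
      rw [Subgroup.commutator_comm]
      exact Subgroup.commutator_mono ih le_rfl
  obtain ⟨i, hi⟩ := nilpotent_iff_lowerCentralSeries.1 ‹Group.IsNilpotent (Γ ⧸ K)›
  have hRK : R ≤ K := by
    intro r hr
    have : QuotientGroup.mk' K r ∈ (⊤ : Subgroup (Γ ⧸ K)).lowerCentralSeries i := hlow i ⟨r, hr, rfl⟩
    rw [hi, Subgroup.mem_bot] at this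
    exact (QuotientGroup.eq_one_iff r).1 this
  have hcop : Nat.Coprime (Nat.card R) 5 :=
    Nat.Coprime.coprime_dvd_left hR (by norm_num)
  have hbig := hcop.mul_dvd_of_dvd_of_dvd (Subgroup.card_dvd_of_le hRK) h5
  have hKpos : 0 < Nat.card K := Nat.card_pos
  have hge : 2560 ≤ Nat.card K := le_trans (by omega) (Nat.le_of_dvd hKpos hbig)
  have hKS : 8 ≤ K.index := by
    rw [← hS]
    exact Nat.le_of_dvd (Nat.pos_of_ne_zero Subgroup.index_ne_zero_of_finite)
      (Subgroup.index_dvd_of_le S.normalCore_le)
  have hmul := K.card_mul_index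
  rw [hcard] at hmul
  nlinarith

end Cfsg.Agent.H23.Tits
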