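import Cfsg.Agent.H23.Tits.Centralizer
import Cfsg.Agent.H55.Tits.Simple
import Cfsg.Agent.H23.Tits.Group

/-!
Local facts on the Tits group: the centralizer of the central involution, an element of order sixteen, a large
subgroup inside its commutator with the centralizer, and conjugates of the involution.
-/

set_option autoImplicit false
set_option maxRecDepth 100000
set_option synthInstance.maxSize 4096
set_option synthInstance.maxHeartbeats 400000

open Cfsg.Lie Cfsg.Agent.H46
open Cfsg.Agent.H71.ReeF4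
open scoped commutatorElement

namespace Cfsg.Agent.H23.Tits

/-- The derived group. -/
noncomputable abbrev NT : Subgroup ↥W2 := commutator ↥W2

theorem NT_index : NT.index = 2 := Cfsg.Agent.H55.Tits.commutator_index

theorem g1_eq_gelW (k : Fin 12) : g1 k = gelW (K := ZMod 2) (m := 0) hK2 k := Subtype.ext (g1_coe k)

theorem g1_four_not_mem : g1 4 ∉ NT := by
  intro h
  have htop := bigSub_top (K := ZMod 2) (m := 0) hK2 two_cases
  rw [bigSub, ← g1_eq_gelW, sup_eq_left.2 (Subgroup.zpowers_le.2 h)] at htop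
  have h2 := NT_index
  rw [htop, Subgroup.index_top] at h2
  omega

theorem NT_normal : NT.Normal := by infer_instance

theorem mem_conj_iff (a g : ↥W2) : a * g * a⁻¹ ∈ NT ↔ g ∈ NT := by
  constructor
  · intro h
    have := NT_normal.conj_mem _ h a⁻¹
    convert this using 1
    group
  · exact fun h => NT_normal.conj_mem _ h a

theorem mv_mem_iff {j : Fin 2} {k k' : Fin 12} (h : mvOk j k = true) (e : mv j k = k') : g1 k' ∈ NT ↔ g1 k ∈ NT := by
  rw [← e, ← nn_conj_g1 h, mem_conj_iff]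

/-- The coordinates outside the derived group. -/
def oddC : List (Fin 12) := [1, 4, 7, 10]

theorem g1_mem_iff (k : Fin 12) : g1 k ∈ NT ↔ k ∉ oddC := by
  obtain ⟨c6, c2, -⟩ := comm_ok
  have h6 : g1 6 ∈ NT := by
    rw [g1_eq_gelW]
    exact gel_pair_mem hK2 4 7 6 c6 1
  have h2 : g1 2 ∈ NT := by
    rw [g1_eq_gelW]
    exact gel_pair_mem hK2 0 4 2 c2 1
  have h3 := (mv_mem_iff (mv_ok 1 6 (by decide) (by decide)) (show mv 1 6 = 3 from rfl)).2 h6
  have h9 := (mv_mem_iff (mv_ok 0 3 (by decide) (by decide)) (show mv 0 3 = 9 from rfl)).2 h3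
  have h0 := (mv_mem_iff (mv_ok 1 9 (by decide) (by decide)) (show mv 1 9 = 0 from rfl)).2 h9
  have h11 := (mv_mem_iff (mv_ok 0 2 (by decide) (by decide)) (show mv 0 2 = 11 from rfl)).2 h2
  have h8 := (mv_mem_iff (mv_ok 1 2 (by decide) (by decide)) (show mv 1 2 = 8 from rfl)).2 h2
  have h5 := (mv_mem_iff (mv_ok 0 8 (by decide) (by decide)) (show mv 0 8 = 5 from rfl)).2 h8
  have n4 := g1_four_not_mem
  have n7 : g1 7 ∉ NT := fun h => n4 ((mv_mem_iff (mv_ok 0 7 (by decide) (by decide)) (show mv 0 7 = 4 from rfl)).2 h)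
  have n1 : g1 1 ∉ NT := fun h => n7 ((mv_mem_iff (mv_ok 1 1 (by decide) (by decide)) (show mv 1 1 = 7 from rfl)).2 h)
  have n10 : g1 10 ∉ NT := fun h => n1 ((mv_mem_iff (mv_ok 0 10 (by decide) (by decide)) (show mv 0 10 = 1 from rfl)).2 h)
  fin_cases k <;> simp [oddC, *]

theorem mul_mem_iff (a b : ↥W2) : a * b ∈ NT ↔ (a ∈ NT ↔ b ∈ NT) :=
  Subgroup.mul_mem_iff_of_index_two NT_index

theorem el_mem_iff : ∀ L : List (Fin 12), el L ∈ NT ↔ (L.filter fun k => decide (k ∈ oddC)).length % 2 = 0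
  | [] => by rw [el_nil]; simp
  | k :: L => by
    rw [el_cons, mul_mem_iff, g1_mem_iff, el_mem_iff L]
    by_cases hk : k ∈ oddC
    · rw [List.filter_cons_of_pos (by simpa using hk), List.length_cons]
      constructor
      · intro h
        by_contra hc
        exact (h.2 (by omega)) hk
      · intro h
        exact ⟨fun h' => absurd hk h', fun h' => absurd h' (by omega)⟩
    · rw [List.filter_cons_of_neg (by simpa using hk)]
      exact ⟨fun h => h.1 hk, fun h => ⟨fun _ => h, fun _ => hk⟩⟩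

theorem el_mem_CW (L : List (Fin 12)) : el L ∈ CW := U2_le_CW (el_mem_U2 L)

theorem zz_mem_NT : zz ∈ NT := by
  have h : el [5] ∈ NT := (el_mem_iff _).2 (by decide)
  rw [el_single] at h
  unfold zz
  exact h

/-- The centralizer inside the derived group. -/
noncomputable def CT : Subgroup ↥W2 := CW ⊓ NT

theorem g1_four_mem_CW : g1 4 ∈ CW := U2_le_CW (g1_mem_U2 4)

theorem card_CT : Nat.card CT = 10240 := by
  have h1 : (NT.subgroupOf CW).index ∣ 2 := by
    have := Subgroup.relIndex_dvd_index_of_normal NT CW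
    rwa [NT_index, Subgroup.relIndex] at this
  have h2 : (NT.subgroupOf CW).index ≠ 1 := by
    intro h
    rw [Subgroup.index_eq_one, Subgroup.subgroupOf_eq_top] at h
    exact g1_four_not_mem (h g1_four_mem_CW)
  have h3 := (NT.subgroupOf CW).card_mul_index
  have h4 : Nat.card (NT.subgroupOf CW) = Nat.card CT := by
    rw [CT, inf_comm, ← Subgroup.inf_subgroupOf_right]
    exact Nat.card_congr (Subgroup.subgroupOfEquivOfLe inf_le_right).toEquiv
  rcases (Nat.dvd_prime Nat.prime_two).1 h1 with h | h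
  · exact absurd h h2
  · rw [h, h4, card_CW] at h3
    omega

/-- The element of order sixteen. -/
noncomputable def xx : ↥W2 := el [0, 1, 10]

theorem xx_mem : xx ∈ NT := (el_mem_iff _).2 (by decide)

theorem xx_pow : xx ^ 8 = zz := by
  have h := eqW_sound basic_ok.2.2.1
  rw [el_single] at h
  unfold zz
  rw [← h, xx]
  have e : ([0, 1, 10, 0, 1, 10, 0, 1, 10, 0, 1, 10, 0, 1, 10, 0, 1, 10, 0, 1, 10, 0, 1, 10] : List (Fin 12)) =
      [0, 1, 10] ++ [0, 1, 10] ++ [0, 1, 10] ++ [0, 1, 10] ++ [0, 1, 10] ++ [0, 1, 10] ++ [0, 1, 10] ++ [0, 1, 10] := rfl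
  rw [e]
  simp only [el_append]
  generalize el [0, 1, 10] = a
  simp only [pow_succ, pow_zero, one_mul]

/-- The large subgroup of the centralizer. -/
noncomputable def RR : Subgroup ↥W2 := Subgroup.closure {g | ∃ i : Fin 9, el (rGens.getD i.val []) = g}

theorem gens_CT : ∀ i : Fin 9, el (rGens.getD i.val []) ∈ CT ⊓ U2 := by
  intro i
  refine ⟨⟨el_mem_CW _, (el_mem_iff _).2 ?_⟩, el_mem_U2 _⟩
  revert i
  decide +kernel

theorem RR_le : RR ≤ CT ⊓ U2 := by
  rw [RR, Subgroup.closure_le]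
  rintro _ ⟨i, rfl⟩
  exact gens_CT i

theorem gen_mem_RR (i : Fin 9) : el (rGens.getD i.val []) ∈ RR := Subgroup.subset_closure ⟨i, rfl⟩

theorem el_rWord_mem {n : ℕ} (base : List (List (Fin 12))) (H : Subgroup ↥W2)
    (hb : ∀ i : Fin n, el (base.getD i.val []) ∈ H) : ∀ w : List (Fin n), el (rWord base w) ∈ H
  | [] => by rw [show rWord base ([] : List (Fin n)) = [] from rfl, el_nil]; exact one_mem _
  | i :: w => by
    rw [show rWord base (i :: w) = base.getD i.val [] ++ rWord base w from rfl, el_append]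
    exact mul_mem (hb i) (el_rWord_mem base H hb w)

/-- The element of the centralizer outside the unipotent group. -/
noncomputable def cc : ↥W2 := ⁅nn 1, g1 10⁆

theorem comm_comm_alg {G : Type*} [Group G] {n g z : G} (hn : Commute n z) (hg : Commute g z) :
    ⁅n, g⁆ * z = z * ⁅n, g⁆ := by
  rw [commutatorElement_def]
  exact (((hn.mul_left hg).mul_left hn.inv_left).mul_left hg.inv_left).eq

theorem cc_mem_CW : cc ∈ CW :=
  mem_CW.2 (comm_comm_alg (G := ↥W2) (n := nn 1) (g := g1 10) (z := zz) nn_comm_zz (zz_comm_g1 10).symm)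

theorem comm_mem_alg {G : Type*} [Group G] (n g : G) : ⁅n, g⁆ ∈ commutator G :=
  Subgroup.commutator_mem_commutator (Subgroup.mem_top _) (Subgroup.mem_top _)

theorem cc_mem : cc ∈ CT := Subgroup.mem_inf.2 ⟨cc_mem_CW, comm_mem_alg (G := ↥W2) (nn 1) (g1 10)⟩

attribute [irreducible] cc

theorem cc_eq : cc = ⁅nn 1, g1 10⁆ := by unfold cc; rfl

theorem conj_comm_alg {G : Type*} [Group G] {n g a r1 r2 d : G} (h1 : r1 = g⁻¹ * a * g) (h2 : n⁻¹ * r1 * n = r2)
    (h3 : a = g * r2 * g⁻¹) (h4 : n * a * n⁻¹ = d) : ⁅n, g⁆ * a * ⁅n, g⁆⁻¹ = d := by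
  rw [← h4]
  conv_rhs => rw [h3, ← h2, h1]
  rw [commutatorElement_def]
  group

theorem cc_conj_zero : cc * g1 0 * cc⁻¹ = g1 9 := by
  obtain ⟨-, -, -, -, -, e1, -, f2, i1, e2, f3, m9⟩ := five_ok
  have h1 := eqW_sound e1
  have h2 := eqW_sound e2
  rw [el_conjL, el_invL, el_single, el_single, inv_inv] at h1
  rw [el_conjL, el_single, el_single] at h2
  have hB : nn 1 * g1 0 * (nn 1)⁻¹ = g1 9 := by
    have h := el_flip 1 _ f3
    rw [el_single, List.map_cons, List.map_nil, m9, el_single] at h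
    exact h
  rw [cc_eq]
  exact conj_comm_alg (G := ↥W2) h1 (el_unflip 1 _ i1 f2) h2 hB

theorem RR_le_comm : RR ≤ ⁅CT, RR⁆ := by
  obtain ⟨hw, -, -, -, -⟩ := gens_ok
  obtain ⟨a1, a2, a3, a4, a5, -⟩ := five_ok
  have hm : ∀ L : List (Fin 12), (L.filter fun k => decide (k ∈ oddC)).length % 2 = 0 → el L ∈ CT := fun L h =>
    ⟨el_mem_CW L, (el_mem_iff L).2 h⟩
  have r0 : el [0] ∈ RR := gen_mem_RR 0
  have r7 : el [1, 4] ∈ RR := gen_mem_RR 7
  have hc : ∀ i : Fin 5, el (rFive.getD i.val []) ∈ ⁅CT, RR⁆ := by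
    intro i
    fin_cases i
    · show el [2, 3, 4, 5, 7, 8, 9] ∈ _
      rw [eqW_sound a1, el_commL]
      exact Subgroup.commutator_mem_commutator (hm _ (by decide)) r0
    · show el [2] ∈ _
      rw [eqW_sound a2, el_commL]
      exact Subgroup.commutator_mem_commutator (hm _ (by decide)) r0
    · show el [1, 3, 4, 5, 9] ∈ _
      rw [eqW_sound a3, el_commL]
      exact Subgroup.commutator_mem_commutator (hm _ (by decide)) r0
    · show el [0, 3, 6, 9] ∈ _
      have e : el [0, 3, 6, 9] = ⁅cc, el [0]⁆ := by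
        rw [eqW_sound a5, el_append, el_invL, commutatorElement_def cc, el_single, el_single, cc_conj_zero]
      rw [e]
      exact Subgroup.commutator_mem_commutator cc_mem r0
    · show el [5, 8, 9] ∈ _
      rw [eqW_sound a4, el_commL]
      exact Subgroup.commutator_mem_commutator (hm _ (by decide)) r7
  have hgen : ∀ i : Fin 9, el (rGens.getD i.val []) ∈ ⁅CT, RR⁆ := fun i => by
    rw [eqW_sound (hw i)]
    exact el_rWord_mem rFive _ hc _
  conv_lhs => rw [RR]
  rw [Subgroup.closure_le]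
  rintro _ ⟨i, rfl⟩
  exact hgen i

theorem g1_four_normalizes : ∀ r ∈ RR, g1 4 * r * (g1 4)⁻¹ ∈ RR := by
  intro r hr
  induction hr using Subgroup.closure_induction with
  | mem x hx =>
    obtain ⟨i, rfl⟩ := hx
    have h := eqW_sound (gens_ok.2.1 i)
    rw [el_conjL, el_single] at h
    rw [h]
    exact el_rWord_mem rGens _ gen_mem_RR _
  | one => simp
  | mul a b _ _ ha hb =>
    have := mul_mem ha hb
    convert this using 1
    group
  | inv a _ ha =>
    have := inv_mem ha
    convert this using 1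
    group

theorem g1_four_sq : g1 4 * g1 4 ∈ RR := by
  have h := eqW_sound gens_ok.2.2.2.2
  rw [el_cons, el_single] at h
  rw [h]
  exact gen_mem_RR 3

/-- The ten coordinates of the radical. -/
def radC : List (Fin 12) := [0, 1, 2, 3, 4, 5, 6, 7, 8, 9]

theorem radC_lt : ∀ k : Fin 12, k.val < 10 → k ∈ radC := by decide +kernel

theorem rad_mem : ∀ k ∈ radC, g1 k ∈ RR ⊔ Subgroup.zpowers (g1 4) := by
  intro k hk
  set H := RR ⊔ Subgroup.zpowers (g1 4)
  have h4 : g1 4 ∈ H := Subgroup.mem_sup_right (Subgroup.mem_zpowers _)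
  have hR : ∀ i : Fin 9, el (rGens.getD i.val []) ∈ H := fun i => Subgroup.mem_sup_left (gen_mem_RR i)
  have h14 : g1 1 * g1 4 ∈ H := by
    have := hR 7
    rwa [show rGens.getD (7 : Fin 9).val [] = [1, 4] from rfl, el_cons, el_single] at this
  have h47 : g1 4 * g1 7 ∈ H := by
    have := hR 8
    rwa [show rGens.getD (8 : Fin 9).val [] = [4, 7] from rfl, el_cons, el_single] at this
  have pure : ∀ (i : Fin 9) (k : Fin 12), rGens.getD i.val [] = [k] → g1 k ∈ H := fun i k e => by
    have := hR i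
    rwa [e, el_single] at this
  simp only [radC, List.mem_cons, List.not_mem_nil, or_false] at hk
  rcases hk with rfl | rfl | rfl | rfl | rfl | rfl | rfl | rfl | rfl | rfl
  exacts [pure 0 _ rfl, (Subgroup.mul_mem_cancel_right H h4).1 h14, pure 1 _ rfl, pure 2 _ rfl, h4, pure 3 _ rfl,
    pure 4 _ rfl, (Subgroup.mul_mem_cancel_left H h4).1 h47, pure 5 _ rfl, pure 6 _ rfl]

theorem el_rad_mem : ∀ L : List (Fin 12), (∀ k ∈ L, k ∈ radC) → el L ∈ RR ⊔ Subgroup.zpowers (g1 4)
  | [], _ => by rw [el_nil]; exact one_mem _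
  | k :: L, h => by
    rw [el_cons]
    exact mul_mem (rad_mem k (h k List.mem_cons_self)) (el_rad_mem L fun a ha => h a (List.mem_cons_of_mem _ ha))

theorem card_RR : 512 ≤ Nat.card RR ∧ Nat.card RR ∣ 4096 := by
  refine ⟨?_, card_U2 ▸ Subgroup.card_dvd_of_le (RR_le.trans inf_le_right)⟩
  have hle : 1024 ≤ Nat.card ↥(RR ⊔ Subgroup.zpowers (g1 4)) := by
    let ext12 : (Fin 10 → ZMod 2) → Fin 12 → ZMod 2 := fun w k => if h : k.val < 10 then w ⟨k.val, h⟩ else 0
    have hmem : ∀ w, el (normL (ext12 w)) ∈ RR ⊔ Subgroup.zpowers (g1 4) := by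
      intro w
      refine el_rad_mem _ fun k hk => ?_
      simp only [normL, List.mem_filter, decide_eq_true_eq] at hk
      have hlt : k.val < 10 := by
        by_contra hlt
        have h2 := hk.2
        simp only [ext12, dif_neg hlt] at h2
        exact zero_ne_one h2
      exact radC_lt k hlt
    have hcard : Nat.card (Fin 10 → ZMod 2) = 1024 := by simp
    rw [← hcard]
    refine Nat.card_le_card_of_injective (fun w => ⟨_, hmem w⟩) fun w w' h => ?_
    have h1 : el (normL (ext12 w)) = el (normL (ext12 w')) :=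
      congrArg (fun a : ↥(RR ⊔ Subgroup.zpowers (g1 4)) => a.1) h
    have h2 := normL_bijective.1 (Subtype.ext h1 : (⟨_, el_mem_U2 _⟩ : U2) = ⟨_, el_mem_U2 _⟩)
    funext i
    have := congrFun h2 ⟨i.val, by omega⟩
    simpa [ext12, i.isLt] using this
  have := card_sup_zpowers_le RR (g1 4) g1_four_normalizes g1_four_sq
  omega

end Cfsg.Agent.H23.Tits
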