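import Cfsg.Agent.H23.Tits.Group

/-!
A group of order 17971200 with an involution of the kind of the central involutions of the Tits group has no faithful
two-transitive action.
-/

set_option autoImplicit false

namespace Cfsg.Agent.H23.Tits

/-- The degrees allowed by the order. -/
theorem degree_cases (n : ℕ) (hn : n < 4241) (h13 : 13 ≤ n) (hd : 17971200 % (n * n - n) = 0) :
    n = 13 ∨ n = 16 ∨ n = 25 ∨ n = 26 ∨ n = 27 ∨ n = 40 ∨ n = 65 := by
  have key : ∀ i : Fin 66, ∀ j : Fin 65, (decide (13 ≤ 65 * i.val + j.val) &&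
      decide (17971200 % ((65 * i.val + j.val) * (65 * i.val + j.val) - (65 * i.val + j.val)) = 0)) = true →
      List.contains [13, 16, 25, 26, 27, 40, 65] (65 * i.val + j.val) = true := by decide +kernel
  have h := key ⟨n / 65, by omega⟩ ⟨n % 65, by omega⟩
  simp only [Nat.div_add_mod] at h
  simpa using h (by simp [h13, hd])

open scoped Classical

variable {G : Type*} [Group G] [Finite G] {Ω : Type*} [Fintype Ω] [MulAction G Ω] [FaithfulSMul G Ω]

/-- The order of the offdiagonal divides the order of a two-transitive group. -/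
theorem card_offDiag_dvd (h2 : ∀ a b c d : Ω, a ≠ b → c ≠ d → ∃ g : G, g • a = c ∧ g • b = d)
    (hΩ : 2 ≤ Fintype.card Ω) :
    Fintype.card Ω * Fintype.card Ω - Fintype.card Ω ∣ Nat.card G := by
  obtain ⟨a, b, hab⟩ := Fintype.exists_pair_of_one_lt_card (α := Ω) (by omega)
  have horb : MulAction.orbit G (a, b) = ↑(Finset.univ : Finset Ω).offDiag := by
    ext ⟨c, d⟩
    simp only [Finset.coe_offDiag, Set.mem_offDiag, Finset.coe_univ, Set.mem_univ, true_and]
    constructor
    · rintro ⟨g, hg⟩
      simp only [Prod.smul_mk, Prod.mk.injEq] at hg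
      obtain ⟨rfl, rfl⟩ := hg
      simpa using hab
    · intro hcd
      obtain ⟨g, h1, h2'⟩ := h2 a b c d hab hcd
      exact ⟨g, by simp [h1, h2']⟩
  have hc : Nat.card (MulAction.orbit G (a, b)) = Fintype.card Ω * Fintype.card Ω - Fintype.card Ω := by
    rw [horb, Nat.card_coe_set_eq, Set.ncard_coe_finset, Finset.offDiag_card, Finset.card_univ]
  rw [← hc, Nat.card_congr (MulAction.orbitEquivQuotientStabilizer G (a, b)), ← Subgroup.index_eq_card]
  exact Subgroup.index_dvd_card _

omit [Finite G] [FaithfulSMul G Ω] [Fintype Ω] in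
/-- Conjugation preserves the number of moved points. -/
theorem card_moved_conj {z w : G} (h : IsConj z w) :
    Nat.card {a : Ω // w • a ≠ a} = Nat.card {a : Ω // z • a ≠ a} := by
  obtain ⟨g, rfl⟩ := isConj_iff.1 h
  refine Nat.card_congr (Equiv.subtypeEquiv (MulAction.toPerm g⁻¹) fun a => ?_)
  simp only [MulAction.toPerm_apply, ne_eq, mul_smul]
  rw [not_iff_not]
  constructor
  · intro e
    have := congrArg (g⁻¹ • ·) e
    simpa using this
  · intro e
    rw [e]
    simp

omit [FaithfulSMul G Ω] in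
/-- The numbers of conjugates moving the pairs. -/
theorem moved_count (h2 : ∀ a b c d : Ω, a ≠ b → c ≠ d → ∃ g : G, g • a = c ∧ g • b = d) (z : G) {a b : Ω}
    (hab : a ≠ b) :
    Nat.card {w : G // IsConj z w} * Nat.card {c : Ω // z • c ≠ c} =
      (Fintype.card Ω * Fintype.card Ω - Fintype.card Ω) * Nat.card {w : G // IsConj z w ∧ w • a = b} := by
  let e : (Σ w : {w : G // IsConj z w}, {c : Ω // w.1 • c ≠ c}) ≃
      Σ p : {p : Ω × Ω // p.1 ≠ p.2}, {w : G // IsConj z w ∧ w • p.1.1 = p.1.2} :=
    { toFun := fun x => ⟨⟨(x.2.1, x.1.1 • x.2.1), fun e => x.2.2 e.symm⟩, ⟨x.1.1, x.1.2, rfl⟩⟩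
      invFun := fun x => ⟨⟨x.2.1, x.2.2.1⟩, ⟨x.1.1.1, by
        show x.2.1 • x.1.1.1 ≠ x.1.1.1
        rw [x.2.2.2]; exact fun e => x.1.2 e.symm⟩⟩
      left_inv := fun x => rfl
      right_inv := by
        rintro ⟨⟨⟨p, q⟩, hpq⟩, ⟨w, hw, hwe⟩⟩
        dsimp only at hwe ⊢
        subst hwe
        rfl }
  have h := Nat.card_congr e
  haveI : Fintype {w : G // IsConj z w} := Fintype.ofFinite _
  rw [Nat.card_sigma, Nat.card_sigma] at h
  have hl : ∀ w : {w : G // IsConj z w}, Nat.card {c : Ω // w.1 • c ≠ c} = Nat.card {c : Ω // z • c ≠ c} :=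
    fun w => card_moved_conj w.2
  have hr : ∀ p : {p : Ω × Ω // p.1 ≠ p.2}, Nat.card {w : G // IsConj z w ∧ w • p.1.1 = p.1.2} =
      Nat.card {w : G // IsConj z w ∧ w • a = b} := by
    rintro ⟨⟨c, d⟩, hcd⟩
    obtain ⟨g, hgc, hgd⟩ := h2 a b c d hab hcd
    refine (Nat.card_congr (Equiv.subtypeEquiv (MulAut.conj g).toEquiv fun w => ?_)).symm
    show IsConj z w ∧ w • a = b ↔ IsConj z (g * w * g⁻¹) ∧ (g * w * g⁻¹) • c = d
    have hconj : IsConj z (g * w * g⁻¹) ↔ IsConj z w :=
      ⟨fun h => h.trans (isConj_iff.2 ⟨g⁻¹, by group⟩), fun h => h.trans (isConj_iff.2 ⟨g, rfl⟩)⟩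
    rw [hconj, mul_smul, mul_smul, ← hgc, inv_smul_smul, ← hgd, smul_left_cancel_iff]
  simp only [hl, hr, Finset.sum_const, Finset.card_univ, smul_eq_mul] at h
  rw [Nat.card_eq_fintype_card, h]
  congr 1
  rw [Fintype.card_subtype, show (Finset.univ.filter fun p : Ω × Ω => p.1 ≠ p.2) = Finset.univ.offDiag by ext ⟨p, q⟩; simp,
    Finset.offDiag_card, Finset.card_univ]

omit [FaithfulSMul G Ω] in
/-- The numbers of conjugates fixing the points. -/
theorem fixed_count (h2 : ∀ a b c d : Ω, a ≠ b → c ≠ d → ∃ g : G, g • a = c ∧ g • b = d) (z : G) (a : Ω) :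
    Nat.card {w : G // IsConj z w} * Nat.card {c : Ω // z • c = c} =
      Fintype.card Ω * Nat.card {w : G // IsConj z w ∧ w • a = a} := by
  let e : (Σ w : {w : G // IsConj z w}, {c : Ω // w.1 • c = c}) ≃ Σ c : Ω, {w : G // IsConj z w ∧ w • c = c} :=
    { toFun := fun x => ⟨x.2.1, ⟨x.1.1, x.1.2, x.2.2⟩⟩
      invFun := fun x => ⟨⟨x.2.1, x.2.2.1⟩, ⟨x.1, x.2.2.2⟩⟩
      left_inv := fun x => rfl
      right_inv := fun x => rfl }
  have h := Nat.card_congr e
  haveI : Fintype {w : G // IsConj z w} := Fintype.ofFinite _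
  rw [Nat.card_sigma, Nat.card_sigma] at h
  have hl : ∀ w : {w : G // IsConj z w}, Nat.card {c : Ω // w.1 • c = c} = Nat.card {c : Ω // z • c = c} := by
    intro w
    have h1 := card_moved_conj (Ω := Ω) w.2
    have h3 := Fintype.card_subtype_compl fun c : Ω => w.1 • c = c
    have h4 := Fintype.card_subtype_compl fun c : Ω => z • c = c
    have h5 := Fintype.card_subtype_le fun c : Ω => w.1 • c = c
    have h6 := Fintype.card_subtype_le fun c : Ω => z • c = c
    simp only [Nat.card_eq_fintype_card, ne_eq] at h1 ⊢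
    omega
  have hr : ∀ c : Ω, Nat.card {w : G // IsConj z w ∧ w • c = c} = Nat.card {w : G // IsConj z w ∧ w • a = a} := by
    intro c
    obtain ⟨g, hg⟩ : ∃ g : G, g • a = c := by
      by_cases hc : ∀ b : Ω, b = a
      · exact ⟨1, by rw [one_smul, hc c]⟩
      · push Not at hc
        obtain ⟨b, hb⟩ := hc
        by_cases hcb : c = b
        · obtain ⟨g, h', -⟩ := h2 a b c a hb.symm (by rw [hcb]; exact hb)
          exact ⟨g, h'⟩
        · obtain ⟨g, h', -⟩ := h2 a b c b hb.symm hcb
          exact ⟨g, h'⟩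
    refine (Nat.card_congr (Equiv.subtypeEquiv (MulAut.conj g).toEquiv fun w => ?_)).symm
    show IsConj z w ∧ w • a = a ↔ IsConj z (g * w * g⁻¹) ∧ (g * w * g⁻¹) • c = c
    have hconj : IsConj z (g * w * g⁻¹) ↔ IsConj z w :=
      ⟨fun h => h.trans (isConj_iff.2 ⟨g⁻¹, by group⟩), fun h => h.trans (isConj_iff.2 ⟨g, rfl⟩)⟩
    rw [hconj, mul_smul, mul_smul, ← hg, inv_smul_smul, smul_left_cancel_iff]
  simp only [hl, hr, Finset.sum_const, Finset.card_univ, smul_eq_mul] at h
  rw [Nat.card_eq_fintype_card, h]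

omit [FaithfulSMul G Ω] in
/-- The points moved by the eighth power of an element of order sixteen fall into orbits of size sixteen. -/
theorem sixteen_dvd (z x : G) (hx : x ^ 8 = z) (hz : z * z = 1) :
    16 ∣ Nat.card {a : Ω // z • a ≠ a} ∧
      ∀ a : Ω, z • a ≠ a → Nat.card (MulAction.orbit (Subgroup.zpowers x) a) = 16 := by
  have hxz : Commute x z := hx ▸ Commute.self_pow x 8
  have hzi : z⁻¹ = z := inv_eq_of_mul_eq_one_right hz
  have hstab : ∀ a : Ω, z • a ≠ a → ∀ h ∈ Subgroup.zpowers x, h • a = a → h = 1 := by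
    intro a ha h hh hfix
    by_contra h1
    obtain ⟨i, rfl⟩ := Subgroup.mem_zpowers_iff.1 hh
    apply ha
    have h16 : x ^ 16 = 1 := by rw [show 16 = 8 + 8 from rfl, pow_add, hx, hz]
    obtain ⟨j, hj, hij⟩ : ∃ j : ℕ, j < 16 ∧ x ^ i = x ^ j := by
      refine ⟨(i % 16).toNat, by omega, ?_⟩
      rw [← zpow_natCast x, Int.toNat_of_nonneg (Int.emod_nonneg _ (by norm_num))]
      conv_lhs => rw [← Int.emod_add_mul_ediv i 16, zpow_add, zpow_mul]
      rw [show x ^ (16 : ℤ) = 1 by exact_mod_cast h16, one_zpow, mul_one]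
    rw [hij] at hfix h1
    have hpow : ∀ k : ℕ, (x ^ j) ^ k • a = a := by
      intro k
      induction k with
      | zero => simp
      | succ k ih => rw [pow_succ, mul_smul, hfix, ih]
    -- the powers of `x ^ j` reach `x ^ 8`
    obtain ⟨k, hk⟩ : ∃ k : ℕ, (j * k) % 16 = 8 := by
      interval_cases j
      · exact absurd (pow_zero x) h1
      all_goals first
        | exact ⟨8, rfl⟩ | exact ⟨4, rfl⟩ | exact ⟨2, rfl⟩ | exact ⟨1, rfl⟩
    have := hpow k
    rwa [← pow_mul, ← Nat.div_add_mod (j * k) 16, hk, pow_add, pow_mul, h16, one_pow, one_mul, hx] at this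
  have h16' : Nat.card (Subgroup.zpowers x) ∣ 16 := by
    rw [Nat.card_zpowers]
    exact orderOf_dvd_of_pow_eq_one (by rw [show 16 = 8 + 8 from rfl, pow_add, hx, hz])
  let M : SubMulAction (Subgroup.zpowers x) Ω :=
    { carrier := {a | z • a ≠ a}
      smul_mem' := by
        intro h a ha e
        apply ha
        have hc : Commute (h : G) z := by
          obtain ⟨i, hi⟩ := Subgroup.mem_zpowers_iff.1 h.2
          exact hi ▸ hxz.zpow_left i
        rw [Subgroup.smul_def, ← mul_smul, ← hc.eq, mul_smul, smul_left_cancel_iff] at e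
        exact e }
  by_cases hM : ∀ a : Ω, z • a = a
  · refine ⟨?_, fun a ha => absurd (hM a) ha⟩
    have : IsEmpty {a : Ω // z • a ≠ a} := ⟨fun a => a.2 (hM _)⟩
    simp
  push Not at hM
  obtain ⟨a0, ha0⟩ := hM
  have hord : Nat.card (Subgroup.zpowers x) = 16 := by
    rw [Nat.card_zpowers]
    haveI : Fact (Nat.Prime 2) := ⟨Nat.prime_two⟩
    refine orderOf_eq_prime_pow (n := 3) (p := 2) (fun h => ?_) ?_
    · norm_num at h
      rw [hx] at h
      exact ha0 (by rw [h, one_smul])
    · norm_num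
      rw [show 16 = 8 + 8 from rfl, pow_add, hx, hz]
  have horb : ∀ a : Ω, z • a ≠ a → Nat.card (MulAction.orbit (Subgroup.zpowers x) a) = 16 := by
    intro a ha
    have : MulAction.stabilizer (Subgroup.zpowers x) a = ⊥ :=
      (Subgroup.eq_bot_iff_forall _).2 fun h hh => Subtype.ext (hstab a ha h h.2 hh)
    rw [Nat.card_congr (MulAction.orbitEquivQuotientStabilizer _ a), ← Subgroup.index_eq_card, this, Subgroup.index_bot,
      hord]
  refine ⟨?_, horb⟩
  have hcard : Nat.card {a : Ω // z • a ≠ a} = Nat.card M := rfl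
  rw [hcard, Nat.card_congr (MulAction.selfEquivSigmaOrbits (Subgroup.zpowers x) M)]
  haveI : Fintype (MulAction.orbitRel.Quotient (Subgroup.zpowers x) M) := Fintype.ofFinite _
  rw [Nat.card_sigma]
  refine Finset.dvd_sum fun q _ => ?_
  induction q using Quotient.inductionOn' with
  | h a =>
    refine dvd_of_eq ?_
    rw [← horb a.1 a.2]
    refine Nat.card_congr ((Equiv.Set.image Subtype.val _ Subtype.val_injective).trans (Equiv.setCongr ?_)).symm ▸ rfl
    rw [MulAction.orbit_eq_iff.2 (MulAction.orbitRel_apply.1 (Quotient.exact' (Quotient.out_eq' (Quotient.mk'' a))))]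
    exact SubMulAction.val_image_orbit a

/-- There is no faithful two-transitive action. -/
theorem no_two_transitive (hcard : Nat.card G = 17971200) (z x : G) (hz1 : z ≠ 1) (hzz : z * z = 1) (hx : x ^ 8 = z)
    (hC : Nat.card ↥(Subgroup.centralizer ({z} : Set G)) = 10240)
    (no8 : ∀ S : Subgroup ↥(Subgroup.centralizer ({z} : Set G)), S.index ≠ 8)
    (hE : 28 ≤ Nat.card {w : G // IsConj z w ∧ w ∈ Subgroup.centralizer ({z} : Set G)})
    (hΩ : 3 ≤ Fintype.card Ω) :
    ¬ ∀ a b c d : Ω, a ≠ b → c ≠ d → ∃ g : G, g • a = c ∧ g • b = d := by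
  intro h2
  set C := Subgroup.centralizer ({z} : Set G) with hCdef
  have hCmem : ∀ c : G, c ∈ C ↔ Commute c z := by
    intro c
    rw [hCdef, Subgroup.mem_centralizer_singleton_iff]
    exact ⟨fun h => h, fun h => h⟩
  have hxC : x ∈ C := (hCmem x).2 (hx ▸ Commute.self_pow x 8)
  set n := Fintype.card Ω with hn
  -- the degree
  have hdvd := card_offDiag_dvd h2 (by omega)
  rw [hcard, ← hn] at hdvd
  have hnn : n * n - n ≤ 17971200 := Nat.le_of_dvd (by norm_num) hdvd
  have hn13 : 13 ≤ n := by
    have h1 : 13 ∣ Nat.card (Equiv.Perm Ω) :=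
      (show 13 ∣ Nat.card G by rw [hcard]; norm_num).trans
        (Subgroup.card_dvd_of_injective (MulAction.toPermHom G Ω) MulAction.toPerm_injective)
    rw [Nat.card_eq_fintype_card, Fintype.card_perm, Nat.Prime.dvd_factorial (by norm_num)] at h1
    exact h1
  have hn4241 : n < 4241 := by
    by_contra h
    push Not at h
    have : 4240 * n ≤ n * n - n := by
      have : 4241 * n ≤ n * n := Nat.mul_le_mul_right n h
      omega
    omega
  have hcases := degree_cases n hn4241 hn13 (Nat.mod_eq_zero_of_dvd hdvd)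
  -- moved and fixed points of `z`
  set M := {a : Ω // z • a ≠ a}
  set F := {a : Ω // z • a = a}
  obtain ⟨hm16, horb⟩ := sixteen_dvd (Ω := Ω) z x hx hzz
  have hMF : Nat.card M + Nat.card F = n := by
    have h5 := Fintype.card_subtype_le fun c : Ω => z • c = c
    have h4 := Fintype.card_subtype_compl fun c : Ω => z • c = c
    simp only [M, F, Nat.card_eq_fintype_card, ne_eq]
    omega
  obtain ⟨a0, ha0⟩ : ∃ a : Ω, z • a ≠ a := by
    by_contra h
    push Not at h
    exact hz1 (FaithfulSMul.eq_of_smul_eq_smul fun a : Ω => by rw [h a, one_smul])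
  have hMpos : 0 < Nat.card M := by
    haveI : Nonempty M := ⟨⟨a0, ha0⟩⟩
    exact Nat.card_pos
  have hCinv : ∀ c : C, ∀ a : Ω, z • (c.1 • a) = c.1 • a ↔ z • a = a := by
    intro c a
    rw [← mul_smul, ← ((hCmem c).1 c.2).eq, mul_smul, smul_left_cancel_iff]
  -- sixteen moved points are impossible
  have hm : Nat.card M ≠ 16 := by
    intro hm
    set S := MulAction.stabilizer C a0 with hS
    have hidx : S.index = 16 := by
      rw [hS, Subgroup.index_eq_card, ← Nat.card_congr (MulAction.orbitEquivQuotientStabilizer C a0)]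
      refine le_antisymm ?_ ?_
      · rw [← hm]
        refine Nat.card_le_card_of_injective (fun p => (⟨p.1, ?_⟩ : M)) fun p q h => ?_
        · obtain ⟨c, hc⟩ := p.2
          rw [← hc]
          exact fun e => ha0 ((hCinv c a0).1 e)
        · exact Subtype.ext (congrArg (fun t : M => t.1) h)
      · rw [← horb a0 ha0]
        refine Nat.card_le_card_of_injective (fun p => (⟨p.1, ?_⟩ : MulAction.orbit C a0)) fun p q h => ?_
        · obtain ⟨⟨g, hg⟩, hgp⟩ := p.2
          exact ⟨⟨g, Subgroup.zpowers_le.2 hxC hg⟩, hgp⟩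
        · exact Subtype.ext (congrArg (fun t : MulAction.orbit C a0 => t.1) h)
    set zc : C := ⟨z, (hCmem z).2 (Commute.refl z)⟩ with hzc
    have hzS : zc ∉ S := fun h => ha0 h
    set S' := S ⊔ Subgroup.zpowers zc with hS'
    have hlt : S < S' := lt_of_le_of_ne le_sup_left fun e => hzS (by
      rw [e]; exact (le_sup_right : Subgroup.zpowers zc ≤ S') (Subgroup.mem_zpowers zc))
    have hle := card_sup_zpowers_le S zc (fun r hr => by
      have : zc * r * zc⁻¹ = r := by
        rw [mul_inv_eq_iff_eq_mul]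
        exact Subtype.ext ((hCmem r).1 r.2).eq.symm
      rwa [this]) (by
        have : zc * zc = 1 := Subtype.ext hzz
        rw [this]; exact one_mem _)
    have hSc := S.card_mul_index
    rw [hidx, hC] at hSc
    have h'lt : Nat.card S < Nat.card S' := by
      by_contra h
      exact hlt.ne (Subgroup.eq_of_le_of_card_ge hlt.le (by omega))
    obtain ⟨k, hk⟩ := Subgroup.card_dvd_of_le hlt.le
    have hle' : Nat.card S' ≤ 2 * Nat.card S := hle
    have hk2 : k = 2 := by
      have hpos : Nat.card S = 640 := by omega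
      rw [hpos] at hk hle' h'lt
      omega
    refine no8 S' ?_
    have h' := S'.card_mul_index
    rw [hC, hk, hk2] at h'
    have hpos : Nat.card S = 640 := by omega
    rw [hpos] at h'
    omega
  have hm16 : 16 ∣ Nat.card M := hm16
  have h40 : n = 40 ∨ n = 65 := by
    obtain ⟨k, hk⟩ := hm16
    omega
  have hW : Nat.card {w : G // IsConj z w} = 1755 := by
    have h1 : Nat.card {w : G // IsConj z w} = Nat.card (MulAction.orbit (ConjAct G) z) :=
      Nat.card_congr (Equiv.subtypeEquivRight fun w => by rw [ConjAct.mem_orbit_conjAct, isConj_comm])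
    rw [h1, Nat.card_congr (MulAction.orbitEquivQuotientStabilizer (ConjAct G) z), ← Subgroup.index_eq_card]
    have h3 : Nat.card (MulAction.stabilizer (ConjAct G) z) = 10240 := by
      rw [ConjAct.stabilizer_eq_centralizer, ← hC]
      exact Nat.card_congr (Equiv.subtypeEquiv ConjAct.ofConjAct.toEquiv fun c => by
        rw [Subgroup.mem_centralizer_singleton_iff, hCmem]
        exact ⟨fun h => congrArg ConjAct.ofConjAct h, fun h => congrArg ConjAct.toConjAct h.eq⟩)
    have h4 := (MulAction.stabilizer (ConjAct G) z).card_mul_index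
    rw [h3, show Nat.card (ConjAct G) = 17971200 from hcard] at h4
    omega
  rcases h40 with h40 | h65
  · -- degree forty: an orbit of eight fixed points
    have hmF : Nat.card F = 8 := by
      obtain ⟨k, hk⟩ := hm16
      omega
    obtain ⟨a, ha⟩ : ∃ a : Ω, z • a = a := by
      haveI : Nonempty F := (Nat.card_pos_iff.1 (by omega)).1
      exact ⟨(Classical.arbitrary F).1, (Classical.arbitrary F).2⟩
    set S := MulAction.stabilizer C a with hS
    have hle : S.index ≤ 8 := by
      rw [hS, Subgroup.index_eq_card, ← Nat.card_congr (MulAction.orbitEquivQuotientStabilizer C a), ← hmF]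
      refine Nat.card_le_card_of_injective (fun p => (⟨p.1, ?_⟩ : F)) fun p q h => ?_
      · obtain ⟨c, hc⟩ := p.2
        rw [← hc]
        exact (hCinv c a).2 ha
      · exact Subtype.ext (congrArg (fun t : F => t.1) h)
    have hstab : Nat.card (MulAction.stabilizer G a) = 449280 := by
      have htr : MulAction.orbit G a = Set.univ := by
        refine Set.eq_univ_of_forall fun c => ?_
        obtain ⟨b, hb⟩ := Fintype.exists_ne_of_one_lt_card (α := Ω) (by omega) a
        by_cases hcb : c = b
        · obtain ⟨g, h', -⟩ := h2 a b c a hb.symm (by rw [hcb]; exact hb)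
          exact ⟨g, h'⟩
        · obtain ⟨g, h', -⟩ := h2 a b c b hb.symm hcb
          exact ⟨g, h'⟩
      have h4 := (MulAction.stabilizer G a).card_mul_index
      rw [Subgroup.index_eq_card, ← Nat.card_congr (MulAction.orbitEquivQuotientStabilizer G a), htr,
        Nat.card_univ, Nat.card_eq_fintype_card (α := Ω), ← hn, h40, hcard] at h4
      omega
    have hS1 : Nat.card S ∣ 449280 := hstab ▸ Subgroup.card_dvd_of_injective
      ({ toFun := fun s : S => (⟨((s : C) : G), s.2⟩ : MulAction.stabilizer G a)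
         map_one' := rfl
         map_mul' := fun _ _ => rfl } : S →* MulAction.stabilizer G a)
      (fun s t h => Subtype.ext (Subtype.ext (congrArg (fun u : MulAction.stabilizer G a => (u : G)) h)))
    have hS2 : Nat.card S ∣ 10240 := hC ▸ Subgroup.card_subgroup_dvd_card S
    have h8 := S.card_mul_index
    rw [hC] at h8
    have hg : Nat.card S ∣ Nat.gcd 449280 10240 := Nat.dvd_gcd hS1 hS2
    norm_num at hg
    obtain ⟨t, ht⟩ := hg
    refine no8 S ?_
    have : S.index = 8 * t := by
      have hpos : 0 < Nat.card S := Nat.card_pos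
      refine Nat.eq_of_mul_eq_mul_left hpos ?_
      rw [h8, mul_left_comm, ← ht]
      try norm_num
    have := (Subgroup.index_ne_zero_of_finite : S.index ≠ 0)
    omega
  · -- degree sixty-five: a single fixed point
    obtain ⟨a, b, hab⟩ := Fintype.exists_pair_of_one_lt_card (α := Ω) (by omega)
    have hmov := moved_count h2 z hab
    rw [hW, ← hn, h65] at hmov
    have hmov' : 1755 * Nat.card M = (65 * 65 - 65) * Nat.card {w : G // IsConj z w ∧ w • a = b} := hmov
    have hmF : Nat.card F = 1 := by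
      obtain ⟨k, hk⟩ := hm16
      rw [show (65 * 65 - 65 : ℕ) = 4160 from rfl] at hmov'
      have hk4 : k ≤ 4 := by omega
      interval_cases k <;> omega
    haveI : Subsingleton F := (Nat.card_eq_one_iff_unique.1 hmF).1
    obtain ⟨⟨α, hα⟩⟩ := (Nat.card_eq_one_iff_unique.1 hmF).2
    have hfix : ∀ c ∈ C, c • α = α := fun c hc =>
      congrArg (fun t : F => t.1)
        (Subsingleton.elim (⟨c • α, (hCinv ⟨c, hc⟩ α).2 hα⟩ : F) ⟨α, hα⟩)
    have hfc := fixed_count h2 z α
    rw [hW, ← hn, h65, show Nat.card {c : Ω // z • c = c} = 1 from hmF] at hfc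
    have hle : Nat.card {w : G // IsConj z w ∧ w ∈ C} ≤ Nat.card {w : G // IsConj z w ∧ w • α = α} :=
      Nat.card_le_card_of_injective (fun w => ⟨w.1, w.2.1, hfix _ w.2.2⟩)
        fun v w h => Subtype.ext (congrArg (fun t : {w : G // IsConj z w ∧ w • α = α} => t.1) h)
    omega

end Cfsg.Agent.H23.Tits
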