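import Cfsg.Agent.H23.Tits.Local
import Cfsg.Agent.H23.Tits.Perm

/-!
The Tits group has no faithful two-transitive action.
-/

set_option autoImplicit false
set_option maxRecDepth 100000
set_option synthInstance.maxSize 4096
set_option synthInstance.maxHeartbeats 400000

open Cfsg.Lie Cfsg.Agent.H46
open Cfsg.Agent.H71.ReeF4
open scoped commutatorElement

namespace Cfsg.Agent.H23.Tits

/-- A step in the list of representatives gives a conjugate. -/
theorem step_conj {p c : List (Fin 12)} {s : Fin 12 ⊕ Fin 2} (h : zStepOk p s c = true) :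
    IsConj (el p) (el c) := by
  rcases s with k | j
  · rw [zStepOk] at h
    rw [eqW_sound h, el_conjL]
    exact isConj_iff.2 ⟨el [k], rfl⟩
  · rw [zStepOk, Bool.and_eq_true] at h
    rw [eqW_sound h.2, ← el_flip j p h.1]
    exact isConj_iff.2 ⟨nn j, rfl⟩

theorem zList_conj : ∀ i < 27, IsConj zz (el (zList.getD i [])) := by
  obtain ⟨hok, -, hlen, -, -, -⟩ := zOk_true
  intro i
  induction i using Nat.strong_induction_on with
  | _ i ih =>
    intro hi
    rcases Nat.eq_zero_or_pos i with rfl | hpos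
    · rw [show zList.getD 0 [] = [5] from rfl, el_single]
      unfold zz
      exact IsConj.refl _
    · obtain ⟨j, rfl⟩ : ∃ j, i = j + 1 := ⟨i - 1, by omega⟩
      simp only [zOk, List.all_eq_true, List.mem_range, Bool.and_eq_true, decide_eq_true_eq] at hok
      obtain ⟨hle, hs⟩ := hok j (by omega)
      exact (ih _ (by omega) (by omega)).trans (step_conj hs)

/-- Conjugates of the central involution inside the derived group. -/
theorem conj_in_NT {w : ↥W2} (h : IsConj zz w) : ∃ a ∈ NT, a * zz * a⁻¹ = w := by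
  obtain ⟨a, ha⟩ := isConj_iff.1 h
  by_cases hN : a ∈ NT
  · exact ⟨a, hN, ha⟩
  · refine ⟨a * g1 4, (mul_mem_iff _ _).2 ⟨fun h => absurd h hN, fun h => absurd h g1_four_not_mem⟩, ?_⟩
    have e : g1 4 * zz * (g1 4)⁻¹ = zz := by
      rw [← zz_comm_g1, mul_inv_cancel_right]
    calc a * g1 4 * zz * (a * g1 4)⁻¹ = a * (g1 4 * zz * (g1 4)⁻¹) * a⁻¹ := by group
      _ = w := by rw [e, ha]

theorem zList_normal : ∀ i, i < 27 →
    zList.getD i [] = (List.finRange 12).filter (fun k => decide (k ∈ zList.getD i [])) := by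
  obtain ⟨-, hlen, -, -, -, hn⟩ := zOk_true
  intro i hi
  refine hn _ ?_
  rw [List.getD_eq_getElem _ _ (by omega)]
  exact List.getElem_mem _

theorem zList_eleven : zList.getD 7 [] = [11] := rfl

/-- The twenty-eight conjugates. -/
noncomputable def wits (i : Fin 28) : ↥W2 :=
  if i.val < 27 then el (zList.getD i.val []) else nn 1 * g1 11 * (nn 1)⁻¹

theorem wits_conj (i : Fin 28) : IsConj zz (wits i) ∧ wits i ∈ CW := by
  by_cases hi : i.val < 27
  · rw [wits, if_pos hi]
    exact ⟨zList_conj _ hi, el_mem_CW _⟩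
  · rw [wits, if_neg hi]
    have h := zList_conj 7 (by omega)
    rw [zList_eleven, el_single] at h
    exact ⟨h.trans (isConj_iff.2 ⟨nn 1, rfl⟩),
      mul_mem (mul_mem nn_mem_CW (U2_le_CW (g1_mem_U2 11))) (inv_mem nn_mem_CW)⟩

theorem wits_injective : Function.Injective wits := by
  obtain ⟨-, hlen, -, hnd, -, -⟩ := zOk_true
  intro i j h
  by_cases hi : i.val < 27 <;> by_cases hj : j.val < 27
  · rw [wits, wits, if_pos hi, if_pos hj] at h
    have h1 := el_inj_normal (zList_normal _ hi) (zList_normal _ hj) h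
    rw [List.getD_eq_getElem _ _ (by omega), List.getD_eq_getElem _ _ (by omega)] at h1
    exact Fin.ext ((hnd.getElem_inj_iff).1 h1)
  · rw [wits, wits, if_pos hi, if_neg hj] at h
    exact absurd (h ▸ el_mem_U2 _) flip_eleven_not_mem
  · rw [wits, wits, if_neg hi, if_pos hj] at h
    exact absurd (h ▸ el_mem_U2 _) flip_eleven_not_mem
  · exact Fin.ext (by omega)

theorem tits_card : Nat.card ↥NT = 17971200 := by
  have h := Cfsg.Agent.H55.Tits.card_derived
  norm_num at h
  exact h

/-- The central involution in the Tits group. -/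
noncomputable def zT : ↥NT := ⟨zz, zz_mem_NT⟩

theorem mem_centralizer_sub {G : Type*} [Group G] (N : Subgroup G) (z g : N) :
    g ∈ Subgroup.centralizer ({z} : Set N) ↔ (g : G) ∈ Subgroup.centralizer ({(z : G)} : Set G) := by
  rw [Subgroup.mem_centralizer_singleton_iff, Subgroup.mem_centralizer_singleton_iff, Subtype.ext_iff,
    Subgroup.coe_mul, Subgroup.coe_mul]

theorem exists_conj_sub {G : Type*} [Group G] (N : Subgroup G) (z : N) {w : G}
    (h : ∃ a ∈ N, a * (z : G) * a⁻¹ = w) (hw : w ∈ Subgroup.centralizer ({(z : G)} : Set G)) :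
    ∃ v : N, v.1 = w ∧ IsConj z v ∧ v ∈ Subgroup.centralizer ({z} : Set N) := by
  obtain ⟨a, ha, rfl⟩ := h
  refine ⟨⟨a, ha⟩ * z * ⟨a, ha⟩⁻¹, rfl, isConj_iff.2 ⟨_, rfl⟩, ?_⟩
  rw [mem_centralizer_sub]
  exact hw

theorem mem_centralizer_zT (g : ↥NT) : g ∈ Subgroup.centralizer ({zT} : Set ↥NT) ↔ (g : ↥W2) ∈ CW :=
  mem_centralizer_sub NT zT g

theorem card_centralizer_zT : Nat.card ↥(Subgroup.centralizer ({zT} : Set ↥NT)) = 10240 := by
  rw [← card_CT]
  exact Nat.card_congr
    { toFun := fun g => ⟨g.1.1, Subgroup.mem_inf.2 ⟨(mem_centralizer_zT _).1 g.2, g.1.2⟩⟩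
      invFun := fun g => ⟨⟨g.1, (Subgroup.mem_inf.1 g.2).2⟩,
        (mem_centralizer_zT _).2 (Subgroup.mem_inf.1 g.2).1⟩
      left_inv := fun _ => rfl
      right_inv := fun _ => rfl }

/-- A commutator relation pulled back along an injective homomorphism with image in the ambient subgroup. -/
theorem comap_commutator {H G : Type*} [Group H] [Group G] (f : H →* G) (hf : Function.Injective f)
    (A R : Subgroup G) (hA : A ≤ f.range) (hR : R ≤ A) (hRA : R ≤ ⁅A, R⁆) (htop : A.comap f = ⊤) :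
    R.comap f ≤ ⁅(⊤ : Subgroup H), R.comap f⁆ := by
  intro x hx
  have h := hRA (Subgroup.mem_comap.1 hx)
  rw [← Subgroup.map_comap_eq_self (hR.trans hA), ← Subgroup.map_comap_eq_self hA, htop,
    ← Subgroup.map_commutator] at h
  obtain ⟨y, hy, e⟩ := h
  rwa [hf e] at hy

theorem no_index_eight (S : Subgroup ↥(Subgroup.centralizer ({zT} : Set ↥NT))) : S.index ≠ 8 := by
  let f : ↥(Subgroup.centralizer ({zT} : Set ↥NT)) →* ↥W2 :=
    NT.subtype.comp (Subgroup.centralizer ({zT} : Set ↥NT)).subtype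
  have hf : Function.Injective f := fun a b h => Subtype.ext (Subtype.ext h)
  have hA : CT ≤ f.range := fun g hg =>
    ⟨⟨⟨g, (Subgroup.mem_inf.1 hg).2⟩, (mem_centralizer_zT _).2 (Subgroup.mem_inf.1 hg).1⟩, rfl⟩
  have hR : RR ≤ CT := RR_le.trans inf_le_left
  have htop : CT.comap f = ⊤ := eq_top_iff.2 fun x _ =>
    Subgroup.mem_comap.2 (Subgroup.mem_inf.2 ⟨(mem_centralizer_zT _).1 x.2, x.1.2⟩)
  have hc : Nat.card (RR.comap f) = Nat.card RR := by
    conv_rhs => rw [← Subgroup.map_comap_eq_self (hR.trans hA)]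
    exact Nat.card_congr (Subgroup.equivMapOfInjective _ f hf).toEquiv
  exact index_ne_eight card_centralizer_zT (RR.comap f) (hc ▸ card_RR.1) (hc ▸ card_RR.2)
    (comap_commutator f hf CT RR hA hR RR_le_comm htop) S

theorem twenty_eight :
    28 ≤ Nat.card {w : ↥NT // IsConj zT w ∧ w ∈ Subgroup.centralizer ({zT} : Set ↥NT)} := by
  have hmem : ∀ i : Fin 28, ∃ w : ↥NT, w.1 = wits i ∧ IsConj zT w ∧
      w ∈ Subgroup.centralizer ({zT} : Set ↥NT) := by
    intro i
    exact exists_conj_sub NT zT (conj_in_NT (wits_conj i).1) (wits_conj i).2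
  choose w hw1 hw2 hw3 using hmem
  have h28 : Nat.card (Fin 28) = 28 := by simp
  rw [← h28]
  refine Nat.card_le_card_of_injective (fun i => ⟨w i, hw2 i, hw3 i⟩) fun i j h => ?_
  have h1 : w i = w j :=
    congrArg (fun t : {w : ↥NT // IsConj zT w ∧ w ∈ Subgroup.centralizer ({zT} : Set ↥NT)} => t.1) h
  exact wits_injective (by rw [← hw1 i, ← hw1 j, h1])

/-- No faithful two-transitive action. -/
theorem not_two_transitive {Ω : Type*} [Fintype Ω] [MulAction ↥NT Ω] [FaithfulSMul ↥NT Ω]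
    (hΩ : 3 ≤ Fintype.card Ω) : ¬ MulAction.IsMultiplyPretransitive ↥NT Ω 2 := by
  intro h
  have h2 : ∀ a b c d : Ω, a ≠ b → c ≠ d → ∃ g : ↥NT, g • a = c ∧ g • b = d :=
    fun _ _ _ _ hab hcd => MulAction.is_two_pretransitive_iff.1 h hab hcd
  have hz1 : zT ≠ 1 := fun e => zz_ne_one (congrArg (fun a : ↥NT => a.1) e)
  refine no_two_transitive tits_card zT ⟨xx, xx_mem⟩ hz1 (Subtype.ext zz_sq) (Subtype.ext ?_) card_centralizer_zT
    no_index_eight twenty_eight hΩ h2
  show xx ^ 8 = zz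
  exact xx_pow

end Cfsg.Agent.H23.Tits
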